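import Mathlib
import Cfsg.Prelude.Def_LinearParabolics

set_option autoImplicit false

namespace Cfsg.Agent.Lib.Helper46

open Matrix Cfsg
open scoped MatrixGroups

variable {F : Type*} [Field F] {n : ℕ}

/-- the permutation matrix sending `e_j` to `e_{w j}` -/
def pm (F : Type*) [Field F] {n : ℕ} (w : Equiv.Perm (Fin n)) : Matrix (Fin n) (Fin n) F :=
  Matrix.of fun i j => if i = w j then 1 else 0

theorem pm_apply (w : Equiv.Perm (Fin n)) (i j : Fin n) :
    pm F w i j = if i = w j then 1 else 0 := rfl

theorem pm_one : pm F (1 : Equiv.Perm (Fin n)) = 1 := by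
  ext i j
  by_cases h : i = j <;> simp [pm_apply, Matrix.one_apply, h]

theorem pm_mul (w w' : Equiv.Perm (Fin n)) : pm F (w * w') = pm F w * pm F w' := by
  ext i j
  rw [Matrix.mul_apply]
  simp only [pm_apply, Equiv.Perm.coe_mul, Function.comp_apply]
  rw [Finset.sum_eq_single (w' j)]
  · by_cases h : i = w (w' j) <;> simp [h]
  · intro b _ hb
    simp [hb]
  · simp

/-- permutation matrices as a homomorphism into the general linear group -/
def permGL (F : Type*) [Field F] (n : ℕ) : Equiv.Perm (Fin n) →* GL (Fin n) F where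
  toFun w := ⟨pm F w, pm F w⁻¹, by rw [← pm_mul]; simp [pm_one], by rw [← pm_mul]; simp [pm_one]⟩
  map_one' := by
    ext i j
    simp [pm_one]
  map_mul' w w' := by
    ext i j
    simp [pm_mul]

theorem permGL_coe (w : Equiv.Perm (Fin n)) :
    ((permGL F n w : GL (Fin n) F) : Matrix (Fin n) (Fin n) F) = pm F w := rfl

/-- the first `k` columns (and their pivot rows) are cleaned -/
def Cleaned (h : Matrix (Fin n) (Fin n) F) (r : Fin n → Fin n) (k : ℕ) : Prop :=
  ∀ j : Fin n, j.val < k →
    h (r j) j ≠ 0 ∧ (∀ i, i ≠ r j → h i j = 0) ∧ (∀ j', j' ≠ j → h (r j) j' = 0)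

theorem clean_step (h : Matrix (Fin n) (Fin n) F) (hdet : h.det ≠ 0) (r : Fin n → Fin n) (k : ℕ)
    (hk : k < n) (hc : Cleaned h r k) :
    ∃ L U : Matrix (Fin n) (Fin n) F, L.BlockTriangular id ∧ U.BlockTriangular id ∧
      L.det = 1 ∧ U.det = 1 ∧ ∃ r', Cleaned (L * h * U) r' (k + 1) := by
  classical
  set c : Fin n := ⟨k, hk⟩ with hcdef
  have hne : (Finset.univ.filter fun i => h i c ≠ 0).Nonempty := by
    by_contra hemp
    rw [Finset.not_nonempty_iff_eq_empty] at hemp
    apply hdet
    apply Matrix.det_eq_zero_of_column_eq_zero c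
    intro i
    by_contra hi
    have : i ∈ (Finset.univ.filter fun i => h i c ≠ 0) := by simp [hi]
    rw [hemp] at this
    simp at this
  set r₀ := (Finset.univ.filter fun i => h i c ≠ 0).max' hne with hr₀
  have F1 : h r₀ c ≠ 0 := by
    have := Finset.max'_mem _ hne
    rw [← hr₀] at this
    simpa using this
  have F2 : ∀ i, r₀ < i → h i c = 0 := by
    intro i hi
    by_contra hne'
    have : i ≤ r₀ := Finset.le_max' _ i (by simp [hne'])
    exact absurd hi (not_lt.2 this)
  have F4 : ∀ j : Fin n, j.val < k → h (r j) c = 0 := by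
    intro j hj
    apply (hc j hj).2.2
    intro e
    rw [← e] at hj
    simp [hcdef] at hj
  have F3 : ∀ j : Fin n, j.val < k → h r₀ j = 0 := by
    intro j hj
    apply (hc j hj).2.1
    intro e
    apply F1
    rw [e]
    exact F4 j hj
  set v : Fin n → F := fun i => if i < r₀ then h i c / h r₀ c else 0 with hv
  set u : Fin n → F := fun j => if c < j then h r₀ j / h r₀ c else 0 with hu
  set L : Matrix (Fin n) (Fin n) F := 1 - Matrix.of (fun a b => if b = r₀ then v a else 0) with hL
  set U : Matrix (Fin n) (Fin n) F := 1 - Matrix.of (fun a b => if a = c then u b else 0) with hU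
  have hvr : v r₀ = 0 := by simp [hv]
  have huc : u c = 0 := by simp [hu]
  have hLt : L.BlockTriangular id := by
    intro i j hij
    simp only [id] at hij
    simp only [hL, Matrix.sub_apply, Matrix.of_apply, Matrix.one_apply]
    rw [if_neg (ne_of_gt hij)]
    by_cases hj : j = r₀
    · rw [if_pos hj]
      simp only [hv]
      rw [if_neg (by rw [← hj]; exact not_lt.2 hij.le)]
      simp
    · rw [if_neg hj]; simp
  have hUt : U.BlockTriangular id := by
    intro i j hij
    simp only [id] at hij
    simp only [hU, Matrix.sub_apply, Matrix.of_apply, Matrix.one_apply]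
    rw [if_neg (ne_of_gt hij)]
    by_cases hi : i = c
    · rw [if_pos hi]
      simp only [hu]
      rw [if_neg (by rw [← hi]; exact not_lt.2 hij.le)]
      simp
    · rw [if_neg hi]; simp
  have hLd : L.det = 1 := by
    rw [Matrix.det_of_isUpperTriangular hLt]
    apply Finset.prod_eq_one
    intro i _
    simp only [hL, Matrix.sub_apply, Matrix.of_apply, Matrix.one_apply_eq]
    by_cases hi : i = r₀
    · rw [if_pos hi, hi, hvr]; simp
    · rw [if_neg hi]; simp
  have hUd : U.det = 1 := by
    rw [Matrix.det_of_isUpperTriangular hUt]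
    apply Finset.prod_eq_one
    intro i _
    simp only [hU, Matrix.sub_apply, Matrix.of_apply, Matrix.one_apply_eq]
    by_cases hi : i = c
    · rw [if_pos hi, hi, huc]; simp
    · rw [if_neg hi]; simp
  have hLh : ∀ a b, (L * h) a b = h a b - v a * h r₀ b := by
    intro a b
    rw [hL, Matrix.sub_mul, Matrix.one_mul, Matrix.sub_apply, Matrix.mul_apply]
    simp only [Matrix.of_apply, ite_mul, zero_mul, Finset.sum_ite_eq', Finset.mem_univ, if_true]
  have hH : ∀ a b, (L * h * U) a b = (h a b - v a * h r₀ b) - (h a c - v a * h r₀ c) * u b := by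
    intro a b
    rw [hU, Matrix.mul_sub, Matrix.mul_one, Matrix.sub_apply]
    rw [hLh]
    congr 1
    rw [Matrix.mul_apply]
    simp only [Matrix.of_apply, mul_ite, mul_zero, Finset.sum_ite_eq', Finset.mem_univ, if_true]
    rw [hLh]
  refine ⟨L, U, hLt, hUt, hLd, hUd, Function.update r c r₀, ?_⟩
  intro j hj
  by_cases hjc : j = c
  · subst hjc
    rw [Function.update_self]
    refine ⟨?_, ?_, ?_⟩
    · rw [hH, hvr, huc]; simpa using F1
    · intro i hi
      rw [hH, huc]
      rcases lt_or_gt_of_ne hi with hlt | hgt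
      · simp only [hv, if_pos hlt]
        field_simp
        ring
      · simp only [hv, if_neg (not_lt.2 hgt.le)]
        rw [F2 i hgt]; ring
    · intro j' hj'
      rw [hH, hvr]
      rcases lt_or_gt_of_ne hj' with hlt | hgt
      · simp only [hu, if_neg (not_lt.2 hlt.le)]
        rw [F3 j' (Fin.lt_def.1 hlt)]; ring
      · simp only [hu, if_pos hgt]
        field_simp
        ring
  · have hjk : j.val < k := by
      have : j.val ≠ k := fun e => hjc (Fin.ext (by simpa [hcdef] using e))
      omega
    rw [Function.update_of_ne hjc]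
    have huj : u j = 0 := by
      simp only [hu]
      rw [if_neg]
      rw [not_lt]
      exact (show j < c from by simpa [hcdef, Fin.lt_def] using hjk).le
    have hvj : v (r j) = 0 := by
      simp only [hv, F4 j hjk]
      simp
    have hcol : ∀ a, (L * h * U) a j = h a j := by
      intro a
      rw [hH, huj, F3 j hjk]; ring
    refine ⟨?_, ?_, ?_⟩
    · rw [hcol]; exact (hc j hjk).1
    · intro i hi
      rw [hcol]; exact (hc j hjk).2.1 i hi
    · intro j' hj'
      rw [hH, hvj, F4 j hjk, (hc j hjk).2.2 j' hj']; ring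

theorem clean_all (g : GL (Fin n) F) (k : ℕ) (hk : k ≤ n) :
    ∃ b₁ b₂ : GL (Fin n) F, b₁ ∈ upperTriangularGL n F ∧ b₂ ∈ upperTriangularGL n F ∧
      ∃ r, Cleaned ((b₁ * g * b₂ : GL (Fin n) F) : Matrix (Fin n) (Fin n) F) r k := by
  induction k with
  | zero =>
    refine ⟨1, 1, Subgroup.one_mem _, Subgroup.one_mem _, id, ?_⟩
    intro j hj
    omega
  | succ k ih =>
    obtain ⟨b₁, b₂, h1, h2, r, hr⟩ := ih (by omega)
    have hdet : ((b₁ * g * b₂ : GL (Fin n) F) : Matrix (Fin n) (Fin n) F).det ≠ 0 := by
      have := (Matrix.GeneralLinearGroup.det (b₁ * g * b₂)).ne_zero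
      simpa using this
    obtain ⟨L, U, hLt, hUt, hLd, hUd, r', hr'⟩ := clean_step _ hdet r k (by omega) hr
    refine ⟨Matrix.GeneralLinearGroup.mkOfDetNeZero L (by rw [hLd]; exact one_ne_zero) * b₁,
      b₂ * Matrix.GeneralLinearGroup.mkOfDetNeZero U (by rw [hUd]; exact one_ne_zero),
      Subgroup.mul_mem _ hLt h1, Subgroup.mul_mem _ h2 hUt, r', ?_⟩
    convert hr' using 1
    simp only [Units.val_mul, Matrix.mul_assoc]
    rfl

/-- Bruhat decomposition (existence part) for the general linear group -/
theorem bruhat_exists (g : GL (Fin n) F) :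
    ∃ (b₁ b₂ : GL (Fin n) F) (w : Equiv.Perm (Fin n)), b₁ ∈ upperTriangularGL n F ∧
      b₂ ∈ upperTriangularGL n F ∧ g = b₁ * permGL F n w * b₂ := by
  classical
  obtain ⟨b₁, b₂, h1, h2, r, hr⟩ := clean_all g n le_rfl
  set h : Matrix (Fin n) (Fin n) F := ((b₁ * g * b₂ : GL (Fin n) F) : Matrix (Fin n) (Fin n) F)
    with hh
  have hinj : Function.Injective r := by
    intro j j' e
    by_contra hne
    have h1 := (hr j j.2).2.2 j' (fun e' => hne e'.symm)
    rw [e] at h1
    exact (hr j' j'.2).1 h1
  have hbij : Function.Bijective r := Finite.injective_iff_bijective.1 hinj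
  set w : Equiv.Perm (Fin n) := Equiv.ofBijective r hbij with hw
  set d : Fin n → F := fun j => h (r j) j with hd
  have hdd : (Matrix.diagonal d).det ≠ 0 := by
    rw [Matrix.det_diagonal]
    exact Finset.prod_ne_zero_iff.2 fun j _ => (hr j j.2).1
  set D : GL (Fin n) F := Matrix.GeneralLinearGroup.mkOfDetNeZero (Matrix.diagonal d) hdd with hD
  have hDB : D ∈ upperTriangularGL n F := Matrix.blockTriangular_diagonal d
  have key : b₁ * g * b₂ = permGL F n w * D := by
    apply Units.ext
    ext i j
    change h i j = (pm F w * Matrix.diagonal d) i j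
    rw [Matrix.mul_diagonal, pm_apply]
    by_cases hij : i = w j
    · rw [if_pos hij, one_mul, hij]; rfl
    · rw [if_neg hij, zero_mul]
      exact (hr j j.2).2.1 i hij
  refine ⟨b₁⁻¹, D * b₂⁻¹, w, Subgroup.inv_mem _ h1,
    Subgroup.mul_mem _ hDB (Subgroup.inv_mem _ h2), ?_⟩
  have : g = b₁⁻¹ * (b₁ * g * b₂) * b₂⁻¹ := by group
  rw [this, key]
  group

end Cfsg.Agent.Lib.Helper46
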