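import Mathlib

set_option autoImplicit false

namespace Cfsg.Agent.Lib.Helper46
open Matrix

variable {F : Type*} [Field F]

def Xs (s : F) : Matrix (Fin 3) (Fin 3) F := !![1,0,0;0,0,-1;0,1,s]

def SimX (s : F) (M : Matrix (Fin 3) (Fin 3) F) : Prop :=
  ∃ P : Matrix (Fin 3) (Fin 3) F, P.det ≠ 0 ∧ M * P = P * Xs s

def IsProdX (s : F) (A : Matrix (Fin 3) (Fin 3) F) : Prop :=
  ∃ B C : Matrix (Fin 3) (Fin 3) F, SimX s B ∧ SimX s C ∧ A = B * C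

theorem simX_lower (s c₁ c₂ m₁₁ m₁₂ m₂₁ m₂₂ : F) (hs : s ≠ 2) (h12 : m₁₂ ≠ 0)
    (htr : m₁₁ + m₂₂ = s) (hdet : m₁₁ * m₂₂ - m₁₂ * m₂₁ = 1) :
    SimX s !![1,0,0;c₁,m₁₁,m₁₂;c₂,m₂₁,m₂₂] := by
  have h2 : (2 - s) ≠ 0 := sub_ne_zero.mpr (Ne.symm hs)
  obtain ⟨z₁, z₂, hz₁, hz₂⟩ : ∃ z₁ z₂ : F, c₁ + m₁₁ * z₁ + m₁₂ * z₂ = z₁ ∧
      c₂ + m₂₁ * z₁ + m₂₂ * z₂ = z₂ := by
    refine ⟨((1-m₂₂)*c₁+m₁₂*c₂)/(2-s), (m₂₁*c₁+(1-m₁₁)*c₂)/(2-s), ?_, ?_⟩
    · field_simp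
      linear_combination (-c₁) * hdet + c₁ * htr
    · field_simp
      linear_combination (-c₂) * hdet + c₂ * htr
  refine ⟨!![1,0,0; z₁, 0, m₁₂; z₂, 1, m₂₂], ?_, ?_⟩
  · simp [Matrix.det_fin_three]; exact h12
  · rw [Xs, Matrix.mul_fin_three, Matrix.mul_fin_three]
    ext i j; fin_cases i <;> fin_cases j <;> simp
    · exact hz₁
    · linear_combination m₁₂ * htr
    · exact hz₂
    · linear_combination m₂₂ * htr - hdet

theorem simX_upper (s r₁ r₂ m₁₁ m₁₂ m₂₁ m₂₂ : F) (hs : s ≠ 2) (h12 : m₁₂ ≠ 0)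
    (htr : m₁₁ + m₂₂ = s) (hdet : m₁₁ * m₂₂ - m₁₂ * m₂₁ = 1) :
    SimX s !![1,r₁,r₂;0,m₁₁,m₁₂;0,m₂₁,m₂₂] := by
  have h2 : (2 - s) ≠ 0 := sub_ne_zero.mpr (Ne.symm hs)
  obtain ⟨y₁, y₂, hy₁, hy₂⟩ : ∃ y₁ y₂ : F, y₁ + r₂ = y₂ ∧
      y₂ + r₁ * m₁₂ + r₂ * m₂₂ = - y₁ + y₂ * s := by
    refine ⟨(-(r₁ * m₁₂ + r₂ * m₂₂) - (1 - s) * r₂)/(2-s),
      (-(r₁ * m₁₂ + r₂ * m₂₂) - (1 - s) * r₂)/(2-s) + r₂, rfl, ?_⟩
    field_simp
    ring
  refine ⟨!![1,y₁,y₂; 0, 0, m₁₂; 0, 1, m₂₂], ?_, ?_⟩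
  · simp [Matrix.det_fin_three]; exact h12
  · rw [Xs, Matrix.mul_fin_three, Matrix.mul_fin_three]
    ext i j; fin_cases i <;> fin_cases j <;> simp
    · exact hy₁
    · exact hy₂
    · linear_combination m₁₂ * htr
    · linear_combination m₂₂ * htr - hdet

theorem IsProdX.conj {s : F} {A A' P : Matrix (Fin 3) (Fin 3) F} (hP : P.det ≠ 0)
    (h : A * P = P * A') (hA' : IsProdX s A') : IsProdX s A := by
  obtain ⟨B, C, ⟨Q, hQ, hBQ⟩, ⟨R, hR, hCR⟩, rfl⟩ := hA'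
  have hPu : IsUnit P.det := isUnit_iff_ne_zero.mpr hP
  have h1 : P⁻¹ * P = 1 := Matrix.nonsing_inv_mul P hPu
  have h2 : P * P⁻¹ = 1 := Matrix.mul_nonsing_inv P hPu
  refine ⟨P * B * P⁻¹, P * C * P⁻¹, ⟨P * Q, ?_, ?_⟩, ⟨P * R, ?_, ?_⟩, ?_⟩
  · rw [Matrix.det_mul]; exact mul_ne_zero hP hQ
  · calc P * B * P⁻¹ * (P * Q) = P * B * (P⁻¹ * P) * Q := by simp only [Matrix.mul_assoc]
      _ = P * (B * Q) := by rw [h1, Matrix.mul_one, Matrix.mul_assoc]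
      _ = P * Q * Xs s := by rw [hBQ, Matrix.mul_assoc]
  · rw [Matrix.det_mul]; exact mul_ne_zero hP hR
  · calc P * C * P⁻¹ * (P * R) = P * C * (P⁻¹ * P) * R := by simp only [Matrix.mul_assoc]
      _ = P * (C * R) := by rw [h1, Matrix.mul_one, Matrix.mul_assoc]
      _ = P * R * Xs s := by rw [hCR, Matrix.mul_assoc]
  · calc A = A * (P * P⁻¹) := by rw [h2, Matrix.mul_one]
      _ = (P * (B * C)) * P⁻¹ := by rw [← Matrix.mul_assoc, h]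
      _ = P * B * (P⁻¹ * P) * C * P⁻¹ := by rw [h1]; simp only [Matrix.mul_assoc, Matrix.one_mul]
      _ = P * B * P⁻¹ * (P * C * P⁻¹) := by simp only [Matrix.mul_assoc]

theorem isProdX_cyclic_normal (s ρ x : F) (hs : s ≠ 2) (hs' : s ≠ -2) :
    IsProdX s !![1,ρ,x;1,ρ,x-1;0,1,3] := by
  refine ⟨!![1,0,0;1,1,1;0,s-2,s-1], !![1,ρ,x;0,-1,-s-2;0,1,s+1],
    simX_lower s 1 0 1 1 (s-2) (s-1) hs one_ne_zero (by ring) (by ring),
    simX_upper s ρ x (-1) (-s-2) 1 (s+1) hs ?_ (by ring) (by ring), ?_⟩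
  · intro h
    apply hs'
    linear_combination -h
  · rw [Matrix.mul_fin_three]
    ext i j; fin_cases i <;> fin_cases j <;> simp <;> ring

theorem isProdX_cyclic (s r₁ r₂ d₁₁ d₁₂ d₂₁ d₂₂ : F) (hs : s ≠ 2) (hs' : s ≠ -2)
    (hd : d₂₁ ≠ 0) (hdet : (d₁₁ * d₂₂ - d₁₂ * d₂₁) - r₁ * d₂₂ + r₂ * d₂₁ = 1) :
    IsProdX s !![1,r₁,r₂;1,d₁₁,d₁₂;0,d₂₁,d₂₂] := by
  refine IsProdX.conj (P := !![1,0,r₁ - (d₁₁ + d₂₂ - 3);0,1,3 - d₂₂;0,0,d₂₁]) ?_ ?_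
    (isProdX_cyclic_normal s (d₁₁ + d₂₂ - 3)
      (r₁ * (3 - d₂₂) + r₂ * d₂₁ - 2 * (r₁ - (d₁₁ + d₂₂ - 3))) hs hs')
  · simp [Matrix.det_fin_three]; exact hd
  · rw [Matrix.mul_fin_three, Matrix.mul_fin_three]
    ext i j; fin_cases i <;> fin_cases j <;> simp
    all_goals first | ring1 | linear_combination hdet | linear_combination -hdet

theorem isProdX_split_normal (s r₁ r₂ μ ν : F) (hs : s ≠ 2) (hs0 : s = 0 ∨ (2 : F) = 0)
    (hμν : ν * μ = 1) :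
    IsProdX s !![1,r₁,r₂;1,r₁ + ν,r₂;0,0,μ] := by
  have hμ : μ ≠ 0 := right_ne_zero_of_mul_eq_one hμν
  by_cases h1 : μ + 1 = 0
  · have hμ1 : μ = -1 := by linear_combination h1
    have hν1 : ν = -1 := by subst hμ1; linear_combination -hμν
    subst hμ1 hν1
    rcases hs0 with rfl | h2
    · refine ⟨!![1,0,0;1,0,1;0,-1,0], !![1,r₁,r₂;0,0,1;0,-1,0],
        simX_lower 0 1 0 0 1 (-1) 0 hs one_ne_zero (by ring) (by ring),
        simX_upper 0 r₁ r₂ 0 1 (-1) 0 hs one_ne_zero (by ring) (by ring), ?_⟩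
      rw [Matrix.mul_fin_three]
      ext i j; fin_cases i <;> fin_cases j <;> simp
    · refine ⟨!![1,0,0;1,0,1;0,-1,s], !![1,r₁,r₂;0,s,-1;0,1,0],
        simX_lower s 1 0 0 1 (-1) s hs one_ne_zero (by ring) (by ring),
        simX_upper s r₁ r₂ s (-1) 1 0 hs (by simp) (by ring) (by ring), ?_⟩
      rw [Matrix.mul_fin_three]
      ext i j; fin_cases i <;> fin_cases j <;> simp
      all_goals first | ring1 | linear_combination h2 | linear_combination -h2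
  · refine ⟨!![1,0,0;1,s/(μ+1),1;0,(s/(μ+1))*(s*μ/(μ+1)) - 1,s*μ/(μ+1)],
      !![1,r₁,r₂;0,(s*μ/(μ+1))*ν,-μ;0,-((s/(μ+1))*(s*μ/(μ+1)) - 1)*ν,(s/(μ+1))*μ],
        simX_lower s 1 0 _ 1 _ _ hs one_ne_zero ?_ (by ring),
        simX_upper s r₁ r₂ _ (-μ) _ _ hs (by simpa using hμ) ?_ ?_, ?_⟩
    · field_simp
      ring
    · field_simp
      linear_combination s * hμν
    · linear_combination ((s/(μ+1))*(s*μ/(μ+1)) - ((s/(μ+1))*(s*μ/(μ+1)) - 1)) * hμν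
    · rw [Matrix.mul_fin_three]
      ext i j; fin_cases i <;> fin_cases j <;> simp
      all_goals ring

theorem isProdX_split (s r₁ r₂ d₁₁ d₁₂ μ : F) (hs : s ≠ 2) (hs0 : s = 0 ∨ (2 : F) = 0)
    (hdet : (d₁₁ - r₁) * μ = 1) :
    IsProdX s !![1,r₁,r₂;1,d₁₁,d₁₂;0,0,μ] := by
  have key := isProdX_split_normal s r₁ (r₂ + (r₂ - d₁₂) * (d₁₁ - r₁) * (1 - μ)) μ (d₁₁ - r₁)
    hs hs0 hdet
  refine IsProdX.conj (P := !![1,0,(r₂ - d₁₂) * (d₁₁ - r₁);0,1,0;0,0,1]) ?_ ?_ key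
  · simp [Matrix.det_fin_three]
  · rw [Matrix.mul_fin_three, Matrix.mul_fin_three]
    ext i j; fin_cases i <;> fin_cases j <;> simp
    · ring
    · linear_combination (r₂ - d₁₂) * hdet

theorem isProdX_of_firstCol (s : F) (hs : s ≠ 2) (hs' : s ≠ -2) (hs0 : s = 0 ∨ (2 : F) = 0)
    (M : Matrix (Fin 3) (Fin 3) F) (h00 : M 0 0 = 1) (h10 : M 1 0 = 1) (h20 : M 2 0 = 0)
    (hdet : M.det = 1) : IsProdX s M := by
  rw [Matrix.det_fin_three, h00, h10, h20] at hdet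
  rw [Matrix.eta_fin_three M, h00, h10, h20]
  by_cases hd : M 2 1 = 0
  · rw [hd] at hdet ⊢
    exact isProdX_split s _ _ _ _ _ hs hs0 (by linear_combination hdet)
  · exact isProdX_cyclic s _ _ _ _ _ _ hs hs' hd (by linear_combination hdet)

theorem exists_firstCol (A : Matrix (Fin 3) (Fin 3) F) (hA : ∀ c : F, A ≠ c • 1) :
    ∃ P A' : Matrix (Fin 3) (Fin 3) F, P.det ≠ 0 ∧ A * P = P * A' ∧
      A' 0 0 = 1 ∧ A' 1 0 = 1 ∧ A' 2 0 = 0 := by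
  have h1 : ∃ v : Fin 3 → F, LinearIndependent F ![v, A.mulVecLin v] := by
    by_contra hcon
    push Not at hcon
    obtain ⟨a, ha⟩ := LinearMap.exists_eq_smul_id_of_forall_notLinearIndependent hcon
    apply hA a
    ext i j
    have := congrArg (fun f => f (Pi.single j 1) i) ha
    simpa [Matrix.one_apply, Pi.single_apply, eq_comm] using this
  obtain ⟨v, hv⟩ := h1
  have hvw : LinearIndependent F ![v, A *ᵥ v - v] := by
    rw [LinearIndependent.pair_iff] at hv ⊢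
    intro a b hab
    have := hv (a - b) b (by
      rw [Matrix.mulVecLin_apply]
      rw [← hab]; module)
    obtain ⟨h1, h2⟩ := this
    subst h2
    exact ⟨by simpa using h1, rfl⟩
  obtain ⟨u, hu⟩ := exists_linearIndependent_snoc_of_lt_finrank hvw (by simp)
  set P : Matrix (Fin 3) (Fin 3) F := (Matrix.of (Fin.snoc ![v, A *ᵥ v - v] u :
    Fin 3 → Fin 3 → F))ᵀ with hP
  have hPu : IsUnit P := by
    rw [← Matrix.linearIndependent_cols_iff_isUnit]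
    exact hu
  have hPdet : IsUnit P.det := (Matrix.isUnit_iff_isUnit_det P).mp hPu
  refine ⟨P, P⁻¹ * (A * P), hPdet.ne_zero, ?_, ?_⟩
  · rw [← Matrix.mul_assoc, Matrix.mul_nonsing_inv P hPdet, Matrix.one_mul]
  · have e0 : P *ᵥ (Pi.single 0 1) = v := by
      ext i; simp [hP]
    have e1 : P *ᵥ (Pi.single 1 1) = A *ᵥ v - v := by
      ext i; simp [hP]
    have hcol : (P⁻¹ * (A * P)) *ᵥ (Pi.single 0 1) = Pi.single 0 1 + Pi.single 1 1 := by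
      rw [← Matrix.mulVec_mulVec, ← Matrix.mulVec_mulVec, e0]
      have h3 : A *ᵥ v = P *ᵥ (Pi.single 0 1 + Pi.single 1 1) := by
        rw [Matrix.mulVec_add, e0, e1]; abel
      rw [h3, Matrix.mulVec_mulVec, Matrix.nonsing_inv_mul P hPdet, Matrix.one_mulVec]
    refine ⟨?_, ?_, ?_⟩
    · have := congrFun hcol 0; simpa using this
    · have := congrFun hcol 1; simpa using this
    · have := congrFun hcol 2; simpa using this

theorem isProdX_of_nonscalar (s : F) (hs : s ≠ 2) (hs' : s ≠ -2) (hs0 : s = 0 ∨ (2 : F) = 0)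
    (A : Matrix (Fin 3) (Fin 3) F) (hdet : A.det = 1) (hA : ∀ c : F, A ≠ c • 1) :
    IsProdX s A := by
  obtain ⟨P, A', hP, hAP, h00, h10, h20⟩ := exists_firstCol A hA
  have hdet' : A'.det = 1 := by
    have h1 := congrArg Matrix.det hAP
    rw [Matrix.det_mul, Matrix.det_mul, hdet, one_mul] at h1
    exact mul_left_cancel₀ hP (by rw [mul_one]; exact h1.symm)
  exact IsProdX.conj hP hAP (isProdX_of_firstCol s hs hs' hs0 A' h00 h10 h20 hdet')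

theorem det_Xs (s : F) : (Xs s).det = 1 := by
  simp [Xs, Matrix.det_fin_three]

/-- `X_s` as an element of `SL₃`. -/
def XsSL (s : F) : Matrix.SpecialLinearGroup (Fin 3) F := ⟨Xs s, det_Xs s⟩

theorem SimX.exists_SL {s : F} {B : Matrix (Fin 3) (Fin 3) F} (h : SimX s B) :
    ∃ U : Matrix.SpecialLinearGroup (Fin 3) F,
      B = ((U * XsSL s * U⁻¹ : Matrix.SpecialLinearGroup (Fin 3) F) :
        Matrix (Fin 3) (Fin 3) F) := by
  obtain ⟨P, hP, hBP⟩ := h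
  have hZ : !![(P.det)⁻¹,0,0;0,1,0;0,0,1] * Xs s = Xs s * !![(P.det)⁻¹,0,0;0,1,0;0,0,1] := by
    rw [Xs, Matrix.mul_fin_three, Matrix.mul_fin_three]
    ext i j; fin_cases i <;> fin_cases j <;> simp
  have hdet : (P * !![(P.det)⁻¹,0,0;0,1,0;0,0,1]).det = 1 := by
    have h3 : (!![(P.det)⁻¹,0,0;0,1,0;0,0,1] : Matrix (Fin 3) (Fin 3) F).det = (P.det)⁻¹ := by
      generalize (P.det)⁻¹ = d
      simp [Matrix.det_fin_three]
    rw [Matrix.det_mul, h3, mul_inv_cancel₀ hP]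
  refine ⟨⟨P * !![(P.det)⁻¹,0,0;0,1,0;0,0,1], hdet⟩, ?_⟩
  set U : Matrix.SpecialLinearGroup (Fin 3) F := ⟨P * !![(P.det)⁻¹,0,0;0,1,0;0,0,1], hdet⟩
    with hU
  have h1 : B * (U : Matrix (Fin 3) (Fin 3) F) = (U : Matrix (Fin 3) (Fin 3) F) * Xs s := by
    change B * (P * !![(P.det)⁻¹,0,0;0,1,0;0,0,1]) = (P * !![(P.det)⁻¹,0,0;0,1,0;0,0,1]) * Xs s
    rw [← Matrix.mul_assoc, hBP, Matrix.mul_assoc, Matrix.mul_assoc, hZ]
  have h2 : (U : Matrix (Fin 3) (Fin 3) F) *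
      ((U⁻¹ : Matrix.SpecialLinearGroup (Fin 3) F) : Matrix (Fin 3) (Fin 3) F) = 1 := by
    rw [← Matrix.SpecialLinearGroup.coe_mul, mul_inv_cancel, Matrix.SpecialLinearGroup.coe_one]
  rw [Matrix.SpecialLinearGroup.coe_mul, Matrix.SpecialLinearGroup.coe_mul]
  change B = (U : Matrix (Fin 3) (Fin 3) F) * Xs s * _
  rw [← h1, Matrix.mul_assoc, h2, Matrix.mul_one]

theorem exists_conj_mul_conj (s : F) (hs : s ≠ 2) (hs' : s ≠ -2) (hs0 : s = 0 ∨ (2 : F) = 0)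
    (A : Matrix.SpecialLinearGroup (Fin 3) F)
    (hA : A ∉ Subgroup.center (Matrix.SpecialLinearGroup (Fin 3) F)) :
    ∃ U V : Matrix.SpecialLinearGroup (Fin 3) F,
      A = (U * XsSL s * U⁻¹) * (V * XsSL s * V⁻¹) := by
  have hns : ∀ c : F, (A : Matrix (Fin 3) (Fin 3) F) ≠ c • 1 := by
    intro c hc
    apply hA
    rw [Matrix.SpecialLinearGroup.mem_center_iff]
    refine ⟨c, ?_, ?_⟩
    · have h1 := A.det_coe
      rw [hc, Matrix.det_smul, Matrix.det_one, mul_one] at h1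
      simpa using h1
    · rw [hc]
      ext i j
      simp [Matrix.scalar_apply, Matrix.diagonal_apply, Matrix.one_apply]
  obtain ⟨B, C, hB, hC, hBC⟩ := isProdX_of_nonscalar s hs hs' hs0 A A.det_coe hns
  obtain ⟨U, hU⟩ := hB.exists_SL
  obtain ⟨V, hV⟩ := hC.exists_SL
  refine ⟨U, V, ?_⟩
  apply Matrix.SpecialLinearGroup.ext
  intro i j
  rw [Matrix.SpecialLinearGroup.coe_mul (U * XsSL s * U⁻¹), ← hU, ← hV, ← hBC]

theorem XsSL_zero_pow : (XsSL (0 : F)) ^ 4 = 1 := by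
  apply Subtype.ext
  rw [Matrix.SpecialLinearGroup.coe_pow]
  change (Xs (0:F)) ^ 4 = 1
  rw [show (4:ℕ) = 2 + 2 from rfl, pow_add, pow_two, Xs, Matrix.mul_fin_three,
    Matrix.mul_fin_three]
  ext i j; fin_cases i <;> fin_cases j <;> simp

theorem XsSL_one_pow (h2 : (2 : F) = 0) : (XsSL (1 : F)) ^ 3 = 1 := by
  apply Subtype.ext
  rw [Matrix.SpecialLinearGroup.coe_pow]
  change (Xs (1:F)) ^ 3 = 1
  rw [pow_succ, pow_two, Xs, Matrix.mul_fin_three, Matrix.mul_fin_three]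
  ext i j; fin_cases i <;> fin_cases j <;> simp
  all_goals first | ring1 | linear_combination h2 | linear_combination -h2

end Cfsg.Agent.Lib.Helper46
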