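import Mathlib
import Cfsg.Agent.Lib.Helper45.SLGen

set_option autoImplicit false
set_option linter.unusedSimpArgs false

namespace Cfsg.Agent.Lib.Helper46
open Matrix

section TmCalc

variable {ι : Type*} [Fintype ι] [DecidableEq ι] {F : Type*} [Field F]

/-- the transvection `1 + a φᵀ` lies in `H` -/
def Tm (H : Subgroup (Matrix.SpecialLinearGroup ι F)) (a φ : ι → F) : Prop :=
  ∃ g : Matrix.SpecialLinearGroup ι F, g ∈ H ∧ (g : Matrix ι ι F) = 1 + vecMulVec a φ

variable {H : Subgroup (Matrix.SpecialLinearGroup ι F)} {a b φ ψ : ι → F}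

theorem one_add_vmv_mul_one_add_vmv (a b φ ψ : ι → F) :
    (1 + vecMulVec a φ) * (1 + vecMulVec b ψ) =
      1 + vecMulVec a φ + vecMulVec b ψ + (φ ⬝ᵥ b) • vecMulVec a ψ := by
  rw [Matrix.add_mul, Matrix.mul_add, Matrix.mul_add, Matrix.one_mul, Matrix.one_mul,
    Matrix.mul_one, vecMulVec_mul_vecMulVec, vecMulVec_smul]
  abel

theorem Tm.add_right (h1 : Tm H a φ) (h2 : Tm H a ψ) (h : φ ⬝ᵥ a = 0) : Tm H a (φ + ψ) := by
  obtain ⟨g, hg, hg'⟩ := h1
  obtain ⟨k, hk, hk'⟩ := h2
  refine ⟨g * k, H.mul_mem hg hk, ?_⟩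
  rw [Matrix.SpecialLinearGroup.coe_mul, hg', hk', one_add_vmv_mul_one_add_vmv, h, zero_smul, add_zero,
    vecMulVec_add, add_assoc]

theorem Tm.add_left (h1 : Tm H a φ) (h2 : Tm H b φ) (h : φ ⬝ᵥ b = 0) : Tm H (a + b) φ := by
  obtain ⟨g, hg, hg'⟩ := h1
  obtain ⟨k, hk, hk'⟩ := h2
  refine ⟨g * k, H.mul_mem hg hk, ?_⟩
  rw [Matrix.SpecialLinearGroup.coe_mul, hg', hk', one_add_vmv_mul_one_add_vmv, h, zero_smul, add_zero,
    add_vecMulVec, add_assoc]

theorem coe_inv_eq_of_mul_eq_one (g : Matrix.SpecialLinearGroup ι F) (M : Matrix ι ι F)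
    (h : (g : Matrix ι ι F) * M = 1) : ((g⁻¹ : Matrix.SpecialLinearGroup ι F) : Matrix ι ι F) = M := by
  have h1 : ((g⁻¹ : Matrix.SpecialLinearGroup ι F) : Matrix ι ι F) * (g : Matrix ι ι F) = 1 := by
    rw [← Matrix.SpecialLinearGroup.coe_mul, inv_mul_cancel, Matrix.SpecialLinearGroup.coe_one]
  calc ((g⁻¹ : Matrix.SpecialLinearGroup ι F) : Matrix ι ι F)
      = ((g⁻¹ : Matrix.SpecialLinearGroup ι F) : Matrix ι ι F) * ((g : Matrix ι ι F) * M) := by
        rw [h, Matrix.mul_one]
    _ = M := by rw [← Matrix.mul_assoc, h1, Matrix.one_mul]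

theorem Tm.neg_right (h1 : Tm H a φ) (h : φ ⬝ᵥ a = 0) : Tm H a (-φ) := by
  obtain ⟨g, hg, hg'⟩ := h1
  refine ⟨g⁻¹, H.inv_mem hg, ?_⟩
  apply coe_inv_eq_of_mul_eq_one
  rw [hg', one_add_vmv_mul_one_add_vmv, h, zero_smul, add_zero, vecMulVec_neg]
  abel

theorem Tm.neg_left (h1 : Tm H a φ) (h : φ ⬝ᵥ a = 0) : Tm H (-a) φ := by
  obtain ⟨g, hg, hg'⟩ := h1.neg_right h
  exact ⟨g, hg, by rw [hg', vecMulVec_neg, neg_vecMulVec]⟩

theorem Tm.conj {g : Matrix.SpecialLinearGroup ι F} (hg : g ∈ H)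
    (h1 : Tm H a (φ ᵥ* (g : Matrix ι ι F))) : Tm H ((g : Matrix ι ι F) *ᵥ a) φ := by
  obtain ⟨k, hk, hk'⟩ := h1
  refine ⟨g * k * g⁻¹, H.mul_mem (H.mul_mem hg hk) (H.inv_mem hg), ?_⟩
  have h2 : (g : Matrix ι ι F) * ((g⁻¹ : Matrix.SpecialLinearGroup ι F) : Matrix ι ι F) = 1 := by
    rw [← Matrix.SpecialLinearGroup.coe_mul, mul_inv_cancel, Matrix.SpecialLinearGroup.coe_one]
  rw [Matrix.SpecialLinearGroup.coe_mul, Matrix.SpecialLinearGroup.coe_mul, hk', Matrix.mul_add, Matrix.mul_one,
    Matrix.add_mul, h2, ← vecMulVec_mul, ← Matrix.mul_assoc, Matrix.mul_assoc _ _ (g⁻¹).1, h2,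
    Matrix.mul_one, mul_vecMulVec]

theorem Tm.conj' {g : Matrix.SpecialLinearGroup ι F} (hg : g ∈ H)
    (h1 : Tm H ((g : Matrix ι ι F) *ᵥ a) φ) : Tm H a (φ ᵥ* (g : Matrix ι ι F)) := by
  obtain ⟨k, hk, hk'⟩ := h1
  refine ⟨g⁻¹ * k * g, H.mul_mem (H.mul_mem (H.inv_mem hg) hk) hg, ?_⟩
  have h2 : ((g⁻¹ : Matrix.SpecialLinearGroup ι F) : Matrix ι ι F) * (g : Matrix ι ι F) = 1 := by
    rw [← Matrix.SpecialLinearGroup.coe_mul, inv_mul_cancel, Matrix.SpecialLinearGroup.coe_one]
  rw [Matrix.SpecialLinearGroup.coe_mul, Matrix.SpecialLinearGroup.coe_mul, hk', Matrix.mul_add, Matrix.mul_one,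
    Matrix.add_mul, h2, ← mul_vecMulVec, ← Matrix.mul_assoc, h2, Matrix.one_mul, vecMulVec_mul]

theorem Tm.conj_tm (h1 : Tm H a φ) (h : φ ⬝ᵥ a = 0) (h2 : Tm H b ψ) :
    Tm H (b + (φ ⬝ᵥ b) • a) (ψ - (ψ ⬝ᵥ a) • φ) := by
  obtain ⟨g, hg, hg'⟩ := h1
  have e1 : (g : Matrix ι ι F) *ᵥ b = b + (φ ⬝ᵥ b) • a := by
    rw [hg', Matrix.add_mulVec, Matrix.one_mulVec, vecMulVec_mulVec]
    ext i
    simp [mul_comm]
  have e2 : (ψ - (ψ ⬝ᵥ a) • φ) ᵥ* (g : Matrix ι ι F) = ψ := by
    rw [hg', Matrix.vecMul_add, Matrix.vecMul_one, vecMul_vecMulVec, sub_dotProduct,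
      smul_dotProduct, h]
    simp
  rw [← e1]
  apply Tm.conj hg
  rw [e2]
  exact h2

theorem Tm.congr {a' φ' : ι → F} (h1 : Tm H a φ) (ha : a = a') (hφ : φ = φ') : Tm H a' φ' := by
  subst ha hφ; exact h1

theorem Tm.zero_right (H : Subgroup (Matrix.SpecialLinearGroup ι F)) (a : ι → F) : Tm H a 0 :=
  ⟨1, H.one_mem, by simp⟩

theorem Tm.sum_right {κ : Type*} (s : Finset κ) (f : κ → ι → F)
    (h : ∀ k ∈ s, Tm H a (f k)) (h0 : ∀ k ∈ s, f k ⬝ᵥ a = 0) : Tm H a (∑ k ∈ s, f k) := by
  classical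
  induction s using Finset.induction_on with
  | empty => simpa using Tm.zero_right H a
  | insert k s hk ih =>
    rw [Finset.sum_insert hk]
    exact (h k (Finset.mem_insert_self k s)).add_right
      (ih (fun x hx => h x (Finset.mem_insert_of_mem hx))
        (fun x hx => h0 x (Finset.mem_insert_of_mem hx))) (h0 k (Finset.mem_insert_self k s))

/-- commutator rule -/
theorem Tm.comm (h1 : Tm H a φ) (h : φ ⬝ᵥ a = 0) (h2 : Tm H b ψ) (h' : ψ ⬝ᵥ b = 0)
    (h3 : ψ ⬝ᵥ a = 0) : Tm H ((φ ⬝ᵥ b) • a) ψ := by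
  have k1 := h1.conj_tm h h2
  rw [h3, zero_smul, sub_zero] at k1
  have k2 := (h2.neg_left h').add_left k1 (by
    rw [dotProduct_add, dotProduct_smul, h3, h']; simp)
  exact k2.congr (by abel) rfl

end TmCalc

section Stage1

variable {n : ℕ} {F : Type*} [Field F]

/-- sub-diagonal nilpotent matrix -/
def Nlow (n : ℕ) (F : Type*) [Field F] : Matrix (Fin n) (Fin n) F :=
  Matrix.of fun i j => if (i : ℕ) = j + 1 then 1 else 0

theorem oneSubNlow_mulVec_single (i i' : Fin n) (h : (i' : ℕ) = i + 1) :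
    (1 - Nlow n F) *ᵥ Pi.single i 1 = Pi.single i 1 - Pi.single i' 1 := by
  rw [Matrix.sub_mulVec, Matrix.one_mulVec]
  congr 1
  ext r
  simp [Nlow, Pi.single_apply, Fin.ext_iff, h]

theorem single_vecMul_oneSubNlow (k k' : Fin n) (h : (k : ℕ) = k' + 1) :
    Pi.single k 1 ᵥ* (1 - Nlow n F) = Pi.single k 1 - Pi.single k' 1 := by
  rw [Matrix.vecMul_sub, Matrix.vecMul_one]
  congr 1
  ext r
  simp only [Matrix.single_one_vecMul, Nlow, Pi.single_apply, Fin.ext_iff, h, Matrix.row,
    Matrix.of_apply]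
  congr 1
  simp [eq_comm]

theorem oneSubNlow_mulVec_one (z : Fin n) (hz : (z : ℕ) = 0) :
    (1 - Nlow n F) *ᵥ (fun _ => 1) = Pi.single z 1 := by
  rw [Matrix.sub_mulVec, Matrix.one_mulVec]
  ext r
  simp only [Pi.sub_apply, Matrix.mulVec, dotProduct, Nlow, Matrix.of_apply, mul_one,
    Pi.single_apply]
  by_cases hr : r = z
  · rw [if_pos hr, Finset.sum_eq_zero, sub_zero]
    intro j _
    rw [if_neg]
    rw [hr, hz]; omega
  · rw [if_neg hr]
    have hr' : (r : ℕ) ≠ 0 := fun h => hr (Fin.ext (by rw [h, hz]))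
    rw [Finset.sum_eq_single (⟨(r : ℕ) - 1, by omega⟩ : Fin n)]
    · rw [if_pos (by simp; omega)]; simp
    · intro j _ hj
      rw [if_neg]
      intro h
      apply hj
      apply Fin.ext
      simp; omega
    · intro h; exact absurd (Finset.mem_univ _) h

theorem one_vecMul_oneSubNlow (l : Fin n) (hl : (l : ℕ) + 1 = n) :
    (fun _ => 1) ᵥ* (1 - Nlow n F) = Pi.single l 1 := by
  rw [Matrix.vecMul_sub, Matrix.vecMul_one]
  ext r
  simp only [Pi.sub_apply, Matrix.vecMul, dotProduct, Nlow, Matrix.of_apply, one_mul,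
    Pi.single_apply]
  by_cases hr : r = l
  · rw [if_pos hr, Finset.sum_eq_zero, sub_zero]
    intro j _
    rw [if_neg]
    rw [hr]; have := j.2; omega
  · rw [if_neg hr]
    have hr' : (r : ℕ) + 1 < n := by
      have h1 : (r : ℕ) ≠ l := fun h => hr (Fin.ext h)
      have := r.2; omega
    rw [Finset.sum_eq_single (⟨(r : ℕ) + 1, hr'⟩ : Fin n)]
    · simp
    · intro j _ hj
      rw [if_neg]
      intro h
      apply hj
      apply Fin.ext
      simp; omega
    · intro h; exact absurd (Finset.mem_univ _) h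

theorem stage1_row (H : Subgroup (Matrix.SpecialLinearGroup (Fin n) F))
    (v : Matrix.SpecialLinearGroup (Fin n) F) (hvH : v ∈ H)
    (hv : (v : Matrix (Fin n) (Fin n) F) = 1 - Nlow n F)
    (z l : Fin n) (hz : (z : ℕ) = 0) (hl : (l : ℕ) + 1 = n) (hzl : z ≠ l)
    (hc : Tm H (Pi.single z 1) (Pi.single l 1)) :
    ∀ j : Fin n, j ≠ z → Tm H (Pi.single z 1) (Pi.single j 1) := by
  have row : ∀ k : ℕ, ∀ j : Fin n, (j : ℕ) + k + 1 = n → j ≠ z →
      Tm H (Pi.single z 1) (Pi.single j 1) := by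
    intro k
    induction k with
    | zero =>
      intro j hj _
      have : j = l := Fin.ext (by omega)
      rw [this]; exact hc
    | succ k ih =>
      intro j hj hjz
      have hj1 : (j : ℕ) + 1 < n := by omega
      set j' : Fin n := ⟨(j : ℕ) + 1, hj1⟩ with hj'
      have hj'z : j' ≠ z := by
        intro h
        have := congrArg Fin.val h
        simp [hj', hz] at this
      have hjj' : j ≠ j' := by
        intro h
        have := congrArg Fin.val h
        simp [hj'] at this
      have P := ih j' (by simp [hj']; omega) hj'z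
      have t : Tm H (fun _ => 1) (Pi.single j' 1 - Pi.single j 1) := by
        rw [← single_vecMul_oneSubNlow j' j rfl, ← hv]
        apply Tm.conj' hvH
        rw [hv, oneSubNlow_mulVec_one z hz]
        exact P
      have d1 : (Pi.single j' 1 - Pi.single j 1 : Fin n → F) ⬝ᵥ (fun _ => 1) = 0 := by
        simp [sub_dotProduct]
      have t' := t.neg_right d1
      have d2 : (-(Pi.single j' 1 - Pi.single j 1) : Fin n → F) ⬝ᵥ (fun _ => 1) = 0 := by
        rw [neg_dotProduct, d1, neg_zero]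
      have k1 := t'.conj_tm d2 hc
      have k2 : Tm H (Pi.single z 1) (Pi.single l 1 + (Pi.single j' 1 - Pi.single j 1)) := by
        refine k1.congr ?_ ?_
        · simp [hj'z, hjz]
        · simp; abel
      have k3 := k2.add_right (hc.neg_right (by simp [hzl.symm])) (by
        simp [hj'z, hjz, hzl.symm])
      have k4 : Tm H (Pi.single z 1) (Pi.single j' 1 - Pi.single j 1) :=
        k3.congr rfl (by abel)
      have k5 := (k4.neg_right (by simp [hj'z, hjz])).add_right P (by
        simp [hj'z, hjz])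
      exact k5.congr rfl (by abel)
  intro j hj
  exact row (n - 1 - j) j (by have := j.2; omega) hj

theorem stage1_diff (H : Subgroup (Matrix.SpecialLinearGroup (Fin n) F))
    (v : Matrix.SpecialLinearGroup (Fin n) F) (hvH : v ∈ H)
    (hv : (v : Matrix (Fin n) (Fin n) F) = 1 - Nlow n F)
    (l : Fin n) (hl : (l : ℕ) + 1 = n) (i i' : Fin n) (hi : (i' : ℕ) = i + 1)
    (P : Tm H (Pi.single i 1) (Pi.single l 1)) :
    Tm H (Pi.single i 1 - Pi.single i' 1) (fun _ => 1) := by
  rw [← oneSubNlow_mulVec_single i i' hi, ← hv]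
  apply Tm.conj hvH
  rw [hv, one_vecMul_oneSubNlow l hl]
  exact P

theorem stage1_col (H : Subgroup (Matrix.SpecialLinearGroup (Fin n) F))
    (v : Matrix.SpecialLinearGroup (Fin n) F) (hvH : v ∈ H)
    (hv : (v : Matrix (Fin n) (Fin n) F) = 1 - Nlow n F)
    (z l : Fin n) (hz : (z : ℕ) = 0) (hl : (l : ℕ) + 1 = n) (hzl : z ≠ l)
    (hc : Tm H (Pi.single z 1) (Pi.single l 1)) :
    ∀ i : Fin n, i ≠ l → Tm H (Pi.single i 1) (Pi.single l 1) := by
  have col : ∀ k : ℕ, ∀ i : Fin n, (i : ℕ) = k → i ≠ l →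
      Tm H (Pi.single i 1) (Pi.single l 1) := by
    intro k
    induction k with
    | zero =>
      intro i hi _
      have : i = z := Fin.ext (by omega)
      rw [this]; exact hc
    | succ k ih =>
      intro i' hi' hi'l
      have hk : k < n := by have := i'.2; omega
      set i : Fin n := ⟨k, hk⟩ with hi
      have hil : i ≠ l := by
        intro h
        have := congrArg Fin.val h
        simp [hi] at this
        have := i'.2
        omega
      have P := ih i rfl hil
      have t := stage1_diff H v hvH hv l hl i i' hi' P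
      have d : (fun _ => (1 : F)) ⬝ᵥ (Pi.single i 1 - Pi.single i' 1 : Fin n → F) = 0 := by
        simp [dotProduct_sub]
      have k1 := t.conj_tm d hc
      have k2 : Tm H (Pi.single z 1 + (Pi.single i 1 - Pi.single i' 1)) (Pi.single l 1) := by
        refine k1.congr ?_ ?_
        · simp
        · simp [dotProduct_sub, hil.symm, hi'l.symm]
      have k3 := (hc.neg_left (by simp [hzl.symm])).add_left k2 (by
        simp [dotProduct_sub, hil.symm, hi'l.symm, hzl.symm])
      have k4 : Tm H (Pi.single i 1 - Pi.single i' 1) (Pi.single l 1) :=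
        k3.congr (by abel) rfl
      have k5 := (k4.neg_left (by simp [dotProduct_sub, hil.symm, hi'l.symm])).add_left P (by
        simp [hil.symm])
      exact k5.congr (by abel) rfl
  intro i hi
  exact col i i rfl hi

theorem stage1 (hn : 3 ≤ n) (H : Subgroup (Matrix.SpecialLinearGroup (Fin n) F))
    (v : Matrix.SpecialLinearGroup (Fin n) F) (hvH : v ∈ H)
    (hv : (v : Matrix (Fin n) (Fin n) F) = 1 - Nlow n F)
    (z l : Fin n) (hz : (z : ℕ) = 0) (hl : (l : ℕ) + 1 = n)
    (hc : Tm H (Pi.single z 1) (Pi.single l 1)) :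
    ∀ i j : Fin n, i ≠ j → Tm H (Pi.single i 1) (Pi.single j 1) := by
  have hzl : z ≠ l := by
    intro h
    have := congrArg Fin.val h
    omega
  have row := stage1_row H v hvH hv z l hz hl hzl hc
  have col := stage1_col H v hvH hv z l hz hl hzl hc
  have r : Tm H (Pi.single z 1) ((fun _ => 1) - Pi.single z 1) := by
    have h1 := Tm.sum_right (H := H) (a := Pi.single z 1) (Finset.univ.erase z)
      (fun j => (Pi.single j 1 : Fin n → F)) (fun j hj => row j (Finset.ne_of_mem_erase hj))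
      (fun j hj => by simp [Finset.ne_of_mem_erase hj])
    refine h1.congr rfl ?_
    ext x
    simp only [Finset.sum_apply, Pi.sub_apply, Pi.single_apply]
    by_cases hx : x = z
    · subst hx
      rw [if_pos rfl, sub_self]
      apply Finset.sum_eq_zero
      intro j hj
      rw [if_neg (Finset.ne_of_mem_erase hj).symm]
    · rw [if_neg hx, sub_zero, Finset.sum_eq_single x]
      · simp
      · intro j _ hj
        rw [if_neg hj.symm]
      · intro h
        exact absurd (Finset.mem_erase.mpr ⟨hx, Finset.mem_univ _⟩) h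
  have dr : ((fun _ => 1) - Pi.single z 1 : Fin n → F) ⬝ᵥ Pi.single z 1 = 0 := by
    simp [sub_dotProduct]
  have colz : ∀ k : ℕ, ∀ i : Fin n, (i : ℕ) = k + 1 → Tm H (Pi.single i 1) (Pi.single z 1) := by
    intro k
    induction k with
    | zero =>
      intro i' hi'
      have hi'z : i' ≠ z := by
        intro h
        have := congrArg Fin.val h
        omega
      have t := stage1_diff H v hvH hv l hl z i' (by rw [hi', hz]) hc
      have k1 := r.conj_tm dr t
      have k2 : Tm H (-Pi.single i' 1) (Pi.single z 1) := by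
        refine k1.congr ?_ ?_
        · simp [sub_dotProduct, dotProduct_sub, hi'z, hi'z.symm]
          abel
        · simp
      exact (k2.neg_left (by simp [hi'z, hi'z.symm])).congr (by simp) rfl
    | succ k ih =>
      intro i' hi'
      have hk : k + 1 < n := by have := i'.2; omega
      set i : Fin n := ⟨k + 1, hk⟩ with hi
      have hi'z : i' ≠ z := by
        intro h
        have := congrArg Fin.val h
        omega
      have hiz : i ≠ z := by
        intro h
        have := congrArg Fin.val h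
        simp [hi] at this
        omega
      have hil : i ≠ l := by
        intro h
        have := congrArg Fin.val h
        simp [hi] at this
        have := i'.2
        omega
      have P := ih i rfl
      have t := stage1_diff H v hvH hv l hl i i' hi' (col i hil)
      have k1 := r.conj_tm dr t
      have k2 : Tm H (Pi.single i 1 - Pi.single i' 1) (Pi.single z 1) := by
        refine k1.congr ?_ ?_
        · simp [sub_dotProduct, dotProduct_sub, hi'z, hi'z.symm, hiz, hiz.symm]
        · simp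
      have k3 := (k2.neg_left (by simp [dotProduct_sub, hi'z, hi'z.symm, hiz, hiz.symm])).add_left
        P (by simp [hiz, hiz.symm])
      exact k3.congr (by abel) rfl
  intro i j hij
  by_cases hiz : i = z
  · subst hiz
    exact row j hij.symm
  · by_cases hjz : j = z
    · subst hjz
      have hi0 : (i : ℕ) ≠ 0 := fun h => hiz (Fin.ext (by rw [h, hz]))
      exact colz ((i : ℕ) - 1) i (by omega)
    · have hi0 : (i : ℕ) ≠ 0 := fun h => hiz (Fin.ext (by rw [h, hz]))
      have h1 := colz ((i : ℕ) - 1) i (by omega)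
      have h2 := row j hjz
      have h3 := h1.comm (by simp [hiz, Ne.symm hiz]) h2 (by simp [hjz, Ne.symm hjz])
        (by simp [hij, hij.symm])
      exact h3.congr (by simp) rfl

end Stage1

section Stage2

variable {n : ℕ} {F : Type*} [Field F]

theorem exists_third (hn : 3 ≤ n) (i k : Fin n) : ∃ j : Fin n, j ≠ i ∧ j ≠ k := by
  have h1 : ({i, k} : Finset (Fin n)).card < (Finset.univ : Finset (Fin n)).card := by
    calc ({i, k} : Finset (Fin n)).card ≤ 2 := Finset.card_le_two
      _ < n := by omega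
      _ = (Finset.univ : Finset (Fin n)).card := by simp
  obtain ⟨j, _, hj⟩ := Finset.exists_mem_notMem_of_card_lt_card h1
  simp only [Finset.mem_insert, Finset.mem_singleton, not_or] at hj
  exact ⟨j, hj.1, hj.2⟩

theorem stage2 (hn : 3 ≤ n) (H : Subgroup (Matrix.SpecialLinearGroup (Fin n) F))
    (h1 : ∀ i j : Fin n, i ≠ j → Tm H (Pi.single i 1) (Pi.single j 1))
    (z l : Fin n) (hzl : z ≠ l) (μ : F) (hμ : Tm H (μ • Pi.single z 1) (Pi.single l 1))
    (hgen : ∀ t : F, t ≠ 0 → ∃ k : ℕ, t = μ ^ k) : H = ⊤ := by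
  have hmul : ∀ s t : F, (∀ i j : Fin n, i ≠ j → Tm H (s • Pi.single i 1) (Pi.single j 1)) →
      (∀ i j : Fin n, i ≠ j → Tm H (t • Pi.single i 1) (Pi.single j 1)) →
      (∀ i j : Fin n, i ≠ j → Tm H ((s * t) • Pi.single i 1) (Pi.single j 1)) := by
    intro s t hs ht i k hik
    obtain ⟨j, hji, hjk⟩ := exists_third hn i k
    have h3 := (hs i j hji.symm).comm (by simp [hji, hji.symm]) (ht j k hjk)
      (by simp [hjk, hjk.symm]) (by simp [hik, hik.symm])
    refine h3.congr ?_ rfl
    simp [smul_smul, mul_comm]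
  have hone : ∀ i j : Fin n, i ≠ j → Tm H ((1 : F) • Pi.single i 1) (Pi.single j 1) := by
    intro i j hij
    rw [one_smul]; exact h1 i j hij
  have ha : ∀ j : Fin n, j ≠ z → Tm H (μ • Pi.single z 1) (Pi.single j 1) := by
    intro j hj
    by_cases hjl : j = l
    · rw [hjl]; exact hμ
    · have h3 := hμ.comm (by simp [hzl, hzl.symm]) (h1 l j (Ne.symm hjl))
        (by simp [hjl, Ne.symm hjl]) (by simp [hj, hj.symm])
      exact h3.congr (by simp) rfl
  have hb : ∀ i j : Fin n, i ≠ z → j ≠ z → i ≠ j → Tm H (μ • Pi.single i 1) (Pi.single j 1) := by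
    intro i j hi hj hij
    have h3 := (h1 i z hi).comm (by simp [hi, hi.symm]) (ha j hj)
      (by simp [hj, hj.symm]) (by simp [hij, hij.symm])
    exact h3.congr (by simp) rfl
  have hR : ∀ i j : Fin n, i ≠ j → Tm H (μ • Pi.single i 1) (Pi.single j 1) := by
    intro i j hij
    by_cases hi : i = z
    · rw [hi]; exact ha j (by rw [← hi]; exact hij.symm)
    · by_cases hj : j = z
      · obtain ⟨k, hki, hkz⟩ := exists_third hn i z
        have h3 := (hb i k hi hkz hki.symm).comm (by simp [hki, hki.symm]) (h1 k z hkz)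
          (by simp [hkz, hkz.symm]) (by simp [hi, Ne.symm hi])
        rw [hj]
        exact h3.congr (by simp) rfl
      · exact hb i j hi hj hij
  have hpow : ∀ k : ℕ, ∀ i j : Fin n, i ≠ j → Tm H ((μ ^ k) • Pi.single i 1) (Pi.single j 1) := by
    intro k
    induction k with
    | zero => simpa using hone
    | succ k ih => rw [pow_succ]; exact hmul _ _ ih hR
  have : Nontrivial (Fin n) := ⟨⟨z, l, hzl⟩⟩
  apply Cfsg.Agent.Lib.Helper45.eq_top_of_transvections
  intro i j hij c
  have hc : Tm H (c • Pi.single i 1) (Pi.single j 1) := by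
    by_cases hc0 : c = 0
    · rw [hc0, zero_smul]
      exact ⟨1, H.one_mem, by simp⟩
    · obtain ⟨k, rfl⟩ := hgen c hc0
      exact hpow k i j hij
  obtain ⟨g, hg, hg'⟩ := hc
  have : g = Matrix.SpecialLinearGroup.transvection hij c := by
    apply Subtype.ext
    change (g : Matrix (Fin n) (Fin n) F) = _
    rw [hg', Matrix.SpecialLinearGroup.transvection_coe]
    congr 1
    ext x y
    simp only [vecMulVec_apply, Pi.smul_apply, Pi.single_apply, Matrix.single_apply, smul_eq_mul]
    by_cases hx : x = i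
    · by_cases hy : y = j
      · subst hx hy; simp
      · have hy' : ¬ j = y := fun h => hy h.symm
        simp [hx, hy, hy']
    · have hx' : ¬ i = x := fun h => hx h.symm
      simp [hx, hx']
  rw [← this]; exact hg

end Stage2

section Construct

variable {n : ℕ} {F : Type*} [Field F]

/-- super-diagonal nilpotent matrix -/
def Nup (n : ℕ) (F : Type*) [Field F] : Matrix (Fin n) (Fin n) F :=
  Matrix.of fun i j => if (j : ℕ) = i + 1 then 1 else 0

/-- reversal permutation matrix -/
def wRev (n : ℕ) (F : Type*) [Field F] : Matrix (Fin n) (Fin n) F :=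
  Matrix.of fun i j => if (i : ℕ) + j + 1 = n then 1 else 0

theorem wRev_mul_apply (M : Matrix (Fin n) (Fin n) F) (i j : Fin n) :
    (wRev n F * M) i j = M (Fin.rev i) j := by
  rw [Matrix.mul_apply, Finset.sum_eq_single (Fin.rev i)]
  · simp [wRev, Fin.val_rev]
    intro h; omega
  · intro b _ hb
    simp only [wRev, Matrix.of_apply]
    rw [if_neg, zero_mul]
    intro h
    apply hb
    apply Fin.ext
    rw [Fin.val_rev]; omega
  · intro h; exact absurd (Finset.mem_univ _) h

theorem mul_wRev_apply (M : Matrix (Fin n) (Fin n) F) (i j : Fin n) :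
    (M * wRev n F) i j = M i (Fin.rev j) := by
  rw [Matrix.mul_apply, Finset.sum_eq_single (Fin.rev j)]
  · simp [wRev, Fin.val_rev]
    intro h; omega
  · intro b _ hb
    simp only [wRev, Matrix.of_apply]
    rw [if_neg, mul_zero]
    intro h
    apply hb
    apply Fin.ext
    rw [Fin.val_rev]; omega
  · intro h; exact absurd (Finset.mem_univ _) h

theorem wRev_mul_wRev : wRev n F * wRev n F = 1 := by
  ext i j
  rw [wRev_mul_apply]
  simp only [wRev, Matrix.of_apply, Fin.val_rev, Matrix.one_apply, Fin.ext_iff]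
  congr 1
  apply propext
  constructor <;> intro h <;> omega

theorem wRev_mul_Nup : wRev n F * Nup n F = Nlow n F * wRev n F := by
  ext i j
  rw [wRev_mul_apply, mul_wRev_apply]
  simp only [Nup, Nlow, Matrix.of_apply, Fin.val_rev]
  congr 1
  apply propext
  constructor <;> intro h <;> omega

theorem Nup_pow (k : ℕ) :
    Nup n F ^ k = Matrix.of fun i j : Fin n => if (j : ℕ) = i + k then (1 : F) else 0 := by
  induction k with
  | zero =>
    ext i j
    simp [Matrix.one_apply, Fin.ext_iff, eq_comm]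
  | succ k ih =>
    rw [pow_succ, ih]
    ext i j
    rw [Matrix.mul_apply]
    simp only [Nup, Matrix.of_apply]
    by_cases h : (j : ℕ) = i + (k + 1)
    · rw [if_pos h]
      have hx : (i : ℕ) + k < n := by have := j.2; omega
      rw [Finset.sum_eq_single (⟨(i : ℕ) + k, hx⟩ : Fin n)]
      · simp [h]; omega
      · intro b _ hb
        rw [if_neg, zero_mul]
        intro h'
        exact hb (Fin.ext h')
      · intro h'; exact absurd (Finset.mem_univ _) h'
    · rw [if_neg h]
      apply Finset.sum_eq_zero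
      intro x _
      by_cases hx : (x : ℕ) = i + k
      · rw [if_pos hx, if_neg, mul_zero]
        omega
      · rw [if_neg hx, zero_mul]

theorem det_one_sub_Nup : (1 - Nup n F).det = 1 := by
  rw [Matrix.det_of_isUpperTriangular]
  · apply Finset.prod_eq_one
    intro i _
    simp [Nup]
  · intro i j hij
    have h1 : (j : ℕ) < i := hij
    have h2 : i ≠ j := fun h => by rw [h] at h1; exact lt_irrefl _ h1
    simp only [Matrix.sub_apply, Matrix.one_apply, Nup, Matrix.of_apply, if_neg h2]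
    rw [if_neg, sub_zero]
    omega

theorem vecMulVec_smul_single_single (i j : Fin n) (c : F) :
    vecMulVec (c • Pi.single i 1) (Pi.single j 1) = Matrix.single i j c := by
  ext x y
  simp only [vecMulVec_apply, Pi.smul_apply, Pi.single_apply, Matrix.single_apply, smul_eq_mul]
  by_cases hx : x = i
  · by_cases hy : y = j
    · subst hx hy; simp
    · have hy' : ¬ j = y := fun h => hy h.symm
      simp [hx, hy, hy']
  · have hx' : ¬ i = x := fun h => hx h.symm
    simp [hx, hx']

theorem conj_pow_aux (d di X : Matrix (Fin n) (Fin n) F) (h : di * d = 1) (k : ℕ) :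
    d * di = 1 → (d * X * di) ^ k = d * X ^ k * di := by
  intro h'
  induction k with
  | zero => simp [h']
  | succ k ih =>
    rw [pow_succ, ih, pow_succ]
    calc d * X ^ k * di * (d * X * di) = d * X ^ k * (di * d) * X * di := by
          simp only [Matrix.mul_assoc]
      _ = d * (X ^ k * X) * di := by rw [h, Matrix.mul_one]; simp only [Matrix.mul_assoc]

theorem oneSubNup_col_z (z : Fin n) (hz : (z : ℕ) = 0) (i : Fin n) :
    (1 - Nup n F) i z = if i = z then 1 else 0 := by
  simp [Nup, Matrix.one_apply, hz]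

theorem oneSubNup_col_o (z o : Fin n) (hz : (z : ℕ) = 0) (ho : (o : ℕ) = 1) (i : Fin n) :
    (1 - Nup n F) i o = (if i = o then 1 else 0) - (if i = z then 1 else 0) := by
  simp only [Nup, Matrix.sub_apply, Matrix.one_apply, Matrix.of_apply, ho]
  congr 1
  congr 1
  apply propext
  rw [Fin.ext_iff, hz]
  constructor <;> intro h <;> omega

theorem oneSubNup_row_l (l : Fin n) (hl : (l : ℕ) + 1 = n) (j : Fin n) :
    (1 - Nup n F) l j = if j = l then 1 else 0 := by
  have h3 : ¬ (j : ℕ) = (l : ℕ) + 1 := by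
    have := j.2
    omega
  simp [Nup, Matrix.one_apply, h3, eq_comm]

theorem exists_three_regular_unipotent [Fintype F] (hn : 3 ≤ n) :
    ∃ u g h : Matrix.SpecialLinearGroup (Fin n) F,
      (IsNilpotent ((u : Matrix (Fin n) (Fin n) F) - 1) ∧
        ((u : Matrix (Fin n) (Fin n) F) - 1) ^ (n - 1) ≠ 0) ∧
      Subgroup.closure ({u, g * u * g⁻¹, h * u * h⁻¹} :
        Set (Matrix.SpecialLinearGroup (Fin n) F)) = ⊤ := by
  classical
  obtain ⟨μu, hμu⟩ := IsCyclic.exists_generator (α := Fˣ)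
  obtain ⟨μ, hμdef⟩ : ∃ μ : F, μ = (μu : F) := ⟨_, rfl⟩
  have hμ0 : μ ≠ 0 := by rw [hμdef]; exact μu.ne_zero
  have hgen : ∀ t : F, t ≠ 0 → ∃ k : ℕ, t = μ ^ k := by
    intro t ht
    have h1 := hμu (Units.mk0 t ht)
    rw [← mem_powers_iff_mem_zpowers] at h1
    obtain ⟨k, hk⟩ := h1
    refine ⟨k, ?_⟩
    have h2 := congrArg Units.val hk
    rw [hμdef]
    simpa using h2.symm
  obtain ⟨z, hz⟩ : ∃ z : Fin n, (z : ℕ) = 0 := ⟨⟨0, by omega⟩, rfl⟩
  obtain ⟨o, ho⟩ : ∃ o : Fin n, (o : ℕ) = 1 := ⟨⟨1, by omega⟩, rfl⟩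
  obtain ⟨l, hl⟩ : ∃ l : Fin n, (l : ℕ) + 1 = n := ⟨⟨n - 1, by omega⟩, by simp; omega⟩
  have hzo : z ≠ o := by intro h; have := congrArg Fin.val h; omega
  have hzl : z ≠ l := by intro h; have := congrArg Fin.val h; omega
  have hol : o ≠ l := by intro h; have := congrArg Fin.val h; omega
  obtain ⟨δ, hδdef⟩ : ∃ δ : F, δ = (wRev n F).det := ⟨_, rfl⟩
  have hδ : δ ≠ 0 := by
    intro h
    have h1 := congrArg Matrix.det (wRev_mul_wRev (n := n) (F := F))
    rw [Matrix.det_mul, Matrix.det_one, ← hδdef, h] at h1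
    simp at h1
  obtain ⟨dv, hdv⟩ : ∃ dv : Fin n → F,
      dv = fun i => if i = z then μ else if i = l then δ / μ else 1 := ⟨_, rfl⟩
  have hdvz : dv z = μ := by simp [hdv]
  have hdvl : dv l = δ / μ := by simp [hdv, hzl.symm]
  have hdvo : dv o = 1 := by simp [hdv, hzo.symm, hol]
  have hdv0 : ∀ i, dv i ≠ 0 := by
    intro i
    simp only [hdv]
    split_ifs
    · exact hμ0
    · exact div_ne_zero hδ hμ0
    · exact one_ne_zero
  obtain ⟨d, hd⟩ : ∃ d : Matrix (Fin n) (Fin n) F, d = Matrix.diagonal dv := ⟨_, rfl⟩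
  obtain ⟨di, hdi⟩ : ∃ di : Matrix (Fin n) (Fin n) F,
      di = Matrix.diagonal (fun i => (dv i)⁻¹) := ⟨_, rfl⟩
  have hdd : d * di = 1 := by
    rw [hd, hdi, Matrix.diagonal_mul_diagonal, ← Matrix.diagonal_one]
    congr 1
    ext i
    exact mul_inv_cancel₀ (hdv0 i)
  have hdd' : di * d = 1 := by
    rw [hd, hdi, Matrix.diagonal_mul_diagonal, ← Matrix.diagonal_one]
    congr 1
    ext i
    exact inv_mul_cancel₀ (hdv0 i)
  have hdetd : d.det = δ := by
    rw [hd, Matrix.det_diagonal, Finset.prod_eq_mul z l hzl]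
    · rw [hdvz, hdvl]; field_simp
    · intro c _ hc
      simp [hdv, hc.1, hc.2]
    · intro h; exact absurd (Finset.mem_univ _) h
    · intro h; exact absurd (Finset.mem_univ _) h
  have hdetdi : di.det = δ⁻¹ := by
    have h1 := congrArg Matrix.det hdd
    rw [Matrix.det_mul, Matrix.det_one, hdetd] at h1
    exact eq_inv_of_mul_eq_one_right h1
  have hdetu : (d * (1 - Nup n F) * di).det = 1 := by
    rw [Matrix.det_mul, Matrix.det_mul, det_one_sub_Nup, hdetd, hdetdi]; field_simp
  have hdeth : (wRev n F * di).det = 1 := by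
    rw [Matrix.det_mul, hdetdi, ← hδdef]; field_simp
  obtain ⟨u, hucoe⟩ : ∃ u : Matrix.SpecialLinearGroup (Fin n) F,
      (u : Matrix (Fin n) (Fin n) F) = d * (1 - Nup n F) * di := ⟨⟨_, hdetu⟩, rfl⟩
  obtain ⟨h, hhcoe⟩ : ∃ h : Matrix.SpecialLinearGroup (Fin n) F,
      (h : Matrix (Fin n) (Fin n) F) = wRev n F * di := ⟨⟨_, hdeth⟩, rfl⟩
  obtain ⟨g, hgcoe⟩ : ∃ g : Matrix.SpecialLinearGroup (Fin n) F,
      (g : Matrix (Fin n) (Fin n) F) = 1 + vecMulVec (μ⁻¹ • Pi.single o 1) (Pi.single l 1) :=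
    ⟨Matrix.SpecialLinearGroup.transvection hol μ⁻¹, by
      rw [Matrix.SpecialLinearGroup.transvection_coe, vecMulVec_smul_single_single]⟩
  have huent : ∀ i j, (u : Matrix (Fin n) (Fin n) F) i j =
      dv i * (1 - Nup n F) i j * (dv j)⁻¹ := by
    intro i j
    rw [hucoe, hd, hdi, Matrix.mul_diagonal, Matrix.diagonal_mul]
  have F1 : (u : Matrix (Fin n) (Fin n) F) *ᵥ Pi.single z 1 = Pi.single z 1 := by
    ext i
    rw [Matrix.mulVec_single_one, Matrix.col_apply, huent, oneSubNup_col_z z hz]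
    by_cases hi : i = z
    · rw [hi]; simp [hdv0 z]
    · simp [hi]
  have F2 : (u : Matrix (Fin n) (Fin n) F) *ᵥ Pi.single o 1 =
      Pi.single o 1 - μ • Pi.single z 1 := by
    ext i
    rw [Matrix.mulVec_single_one, Matrix.col_apply, huent, hdvo, oneSubNup_col_o z o hz ho]
    by_cases hi : i = z
    · rw [hi, hdvz]
      simp [hzo]
    · by_cases hi' : i = o
      · rw [hi', hdvo]
        simp [hzo.symm]
      · simp [hi, hi']
  have F3 : Pi.single l 1 ᵥ* (u : Matrix (Fin n) (Fin n) F) = Pi.single l 1 := by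
    ext j
    rw [Matrix.single_one_vecMul, Matrix.row_apply, huent, oneSubNup_row_l l hl]
    by_cases hj : j = l
    · rw [hj]; simp [hdv0 l]
    · simp [hj]
  have hsub : (u : Matrix (Fin n) (Fin n) F) - 1 = d * (-Nup n F) * di := by
    rw [hucoe, Matrix.mul_sub, Matrix.mul_one, Matrix.sub_mul, hdd, Matrix.mul_neg,
      Matrix.neg_mul]
    abel
  have hpow : ∀ k : ℕ, ((u : Matrix (Fin n) (Fin n) F) - 1) ^ k = d * (-Nup n F) ^ k * di := by
    intro k
    rw [hsub]
    exact conj_pow_aux d di _ hdd' k hdd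
  refine ⟨u, g, h, ⟨⟨n, ?_⟩, ?_⟩, ?_⟩
  · rw [hpow, neg_pow, Nup_pow]
    have h0 : (Matrix.of fun i j : Fin n => if (j : ℕ) = i + n then (1 : F) else 0) = 0 := by
      ext i j
      simp only [Matrix.of_apply, Matrix.zero_apply]
      rw [if_neg]
      have := j.2
      omega
    rw [h0]; simp
  · rw [hpow]
    intro h0
    have h1 : (-Nup n F) ^ (n - 1) = 0 := by
      calc (-Nup n F) ^ (n - 1) = di * (d * (-Nup n F) ^ (n - 1) * di) * d := by
            rw [Matrix.mul_assoc d, ← Matrix.mul_assoc di, hdd', Matrix.one_mul, Matrix.mul_assoc,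
              hdd', Matrix.mul_one]
        _ = 0 := by rw [h0]; simp
    have h2 : (Nup n F) ^ (n - 1) = 0 := by
      rw [neg_pow] at h1
      rcases neg_one_pow_eq_or (Matrix (Fin n) (Fin n) F) (n - 1) with h3 | h3
      · rw [h3, one_mul] at h1; exact h1
      · rw [h3, neg_one_mul, neg_eq_zero] at h1; exact h1
    have h3 := congrFun (congrFun h2 z) l
    rw [Nup_pow] at h3
    simp only [Matrix.of_apply, Matrix.zero_apply] at h3
    rw [if_pos (by omega)] at h3
    exact one_ne_zero h3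
  · obtain ⟨H, hH⟩ : ∃ H : Subgroup (Matrix.SpecialLinearGroup (Fin n) F),
        H = Subgroup.closure ({u, g * u * g⁻¹, h * u * h⁻¹} :
          Set (Matrix.SpecialLinearGroup (Fin n) F)) := ⟨_, rfl⟩
    rw [← hH]
    have huH : u ∈ H := by rw [hH]; exact Subgroup.subset_closure (by simp)
    have hgH : g * u * g⁻¹ ∈ H := by rw [hH]; exact Subgroup.subset_closure (by simp)
    have hhH : h * u * h⁻¹ ∈ H := by rw [hH]; exact Subgroup.subset_closure (by simp)
    have hv : ((h * u * h⁻¹ : Matrix.SpecialLinearGroup (Fin n) F) :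
        Matrix (Fin n) (Fin n) F) = 1 - Nlow n F := by
      have h1 : (h : Matrix (Fin n) (Fin n) F) * (u : Matrix (Fin n) (Fin n) F) =
          (1 - Nlow n F) * (h : Matrix (Fin n) (Fin n) F) := by
        rw [hhcoe, hucoe]
        calc wRev n F * di * (d * (1 - Nup n F) * di)
            = wRev n F * (di * d) * (1 - Nup n F) * di := by simp only [Matrix.mul_assoc]
          _ = (wRev n F - wRev n F * Nup n F) * di := by
            rw [hdd', Matrix.mul_one, Matrix.mul_sub, Matrix.mul_one]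
          _ = (1 - Nlow n F) * (wRev n F * di) := by
            rw [wRev_mul_Nup, ← Matrix.mul_assoc, Matrix.sub_mul 1, Matrix.one_mul]
      have h2 : (h : Matrix (Fin n) (Fin n) F) *
          ((h⁻¹ : Matrix.SpecialLinearGroup (Fin n) F) : Matrix (Fin n) (Fin n) F) = 1 := by
        rw [← Matrix.SpecialLinearGroup.coe_mul, mul_inv_cancel,
          Matrix.SpecialLinearGroup.coe_one]
      rw [Matrix.SpecialLinearGroup.coe_mul, Matrix.SpecialLinearGroup.coe_mul, h1,
        Matrix.mul_assoc, h2, Matrix.mul_one]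
    have hc : Tm H (Pi.single z 1) (Pi.single l 1) := by
      refine ⟨u⁻¹ * (g * u * g⁻¹), H.mul_mem (H.inv_mem huH) hgH, ?_⟩
      have hφa : (Pi.single l 1 : Fin n → F) ⬝ᵥ (μ⁻¹ • Pi.single o 1) = 0 := by
        simp [hol, hol.symm]
      have hginv : ((g⁻¹ : Matrix.SpecialLinearGroup (Fin n) F) : Matrix (Fin n) (Fin n) F) =
          1 + vecMulVec (μ⁻¹ • Pi.single o 1) (-Pi.single l 1) := by
        apply coe_inv_eq_of_mul_eq_one
        rw [hgcoe, one_add_vmv_mul_one_add_vmv, hφa, zero_smul, add_zero, vecMulVec_neg]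
        abel
      have hUa : (u : Matrix (Fin n) (Fin n) F) *ᵥ (μ⁻¹ • Pi.single o 1) =
          μ⁻¹ • Pi.single o 1 - Pi.single z 1 := by
        rw [Matrix.mulVec_smul, F2, smul_sub, smul_smul, inv_mul_cancel₀ hμ0, one_smul]
      have h1 : ((g * u * g⁻¹ : Matrix.SpecialLinearGroup (Fin n) F) :
          Matrix (Fin n) (Fin n) F) = (u : Matrix (Fin n) (Fin n) F) *
            (1 + vecMulVec (Pi.single z 1) (Pi.single l 1)) := by
        rw [Matrix.SpecialLinearGroup.coe_mul, Matrix.SpecialLinearGroup.coe_mul, hgcoe, hginv,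
          Matrix.add_mul, Matrix.one_mul, vecMulVec_mul, F3, Matrix.add_mul, Matrix.mul_add,
          Matrix.mul_add, Matrix.mul_one, Matrix.mul_one, mul_vecMulVec, hUa,
          vecMulVec_mul_vecMulVec, hφa, zero_smul, vecMulVec_zero, add_zero, Matrix.mul_add,
          Matrix.mul_one, mul_vecMulVec, F1, vecMulVec_neg, sub_vecMulVec]
        abel
      have h2 : ((u⁻¹ : Matrix.SpecialLinearGroup (Fin n) F) : Matrix (Fin n) (Fin n) F) *
          (u : Matrix (Fin n) (Fin n) F) = 1 := by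
        rw [← Matrix.SpecialLinearGroup.coe_mul, inv_mul_cancel,
          Matrix.SpecialLinearGroup.coe_one]
      rw [Matrix.SpecialLinearGroup.coe_mul, h1, ← Matrix.mul_assoc, h2, Matrix.one_mul]
    have h1 := stage1 hn H (h * u * h⁻¹) hhH hv z l hz hl hc
    have hμT : Tm H (μ • Pi.single z 1) (Pi.single l 1) := by
      have k1 : Tm H ((u : Matrix (Fin n) (Fin n) F) *ᵥ Pi.single o 1) (Pi.single l 1) := by
        apply Tm.conj huH
        rw [F3]
        exact h1 o l hol
      rw [F2] at k1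
      have k2 := (k1.neg_left (by simp [dotProduct_sub, hol, hol.symm, hzl, hzl.symm])).add_left
        (h1 o l hol) (by simp [hol, hol.symm])
      exact k2.congr (by abel) rfl
    exact stage2 hn H h1 z l hzl μ hμT hgen

end Construct

end Cfsg.Agent.Lib.Helper46
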