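import Mathlib
import Cfsg.Agent.Lib.Helper46.SLnRegGen

set_option autoImplicit false
set_option linter.unusedSimpArgs false

namespace Cfsg.Agent.Lib.Helper46
open Matrix

section FieldLemma

variable {F : Type*} [Field F] [Fintype F]

/-- an additive subgroup of a finite field of odd characteristic that is stable under
multiplication by the cube of a primitive element and is non-zero is everything -/
theorem addSubgroup_eq_top_of_cube_stable (h2 : (2 : F) ≠ 0)
    (lam : F) (hgen : ∀ t : F, t ≠ 0 → ∃ k : ℕ, t = lam ^ k)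
    (S : AddSubgroup F) (k0 : F) (hk0 : k0 ≠ 0) (hk0S : k0 ∈ S)
    (hS : ∀ s ∈ S, lam ^ 3 * s ∈ S) : ∀ x : F, x ∈ S := by
  classical
  set K : Set F := {x | ∀ s ∈ S, x * s ∈ S} with hK
  have Kadd : ∀ x y, x ∈ K → y ∈ K → x + y ∈ K := by
    intro x y hx hy s hs
    rw [add_mul]; exact S.add_mem (hx s hs) (hy s hs)
  have Kmul : ∀ x y, x ∈ K → y ∈ K → x * y ∈ K := by
    intro x y hx hy s hs
    rw [mul_assoc]; exact hx _ (hy s hs)
  have Kneg : ∀ x, x ∈ K → -x ∈ K := by
    intro x hx s hs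
    rw [neg_mul]; exact S.neg_mem (hx s hs)
  have Kone : (1 : F) ∈ K := by
    intro s hs; rw [one_mul]; exact hs
  have Kpow : ∀ x, x ∈ K → ∀ n : ℕ, x ^ n ∈ K := by
    intro x hx n
    induction n with
    | zero => simpa using Kone
    | succ n ih => rw [pow_succ]; exact Kmul _ _ ih hx
  have Kinv : ∀ x, x ∈ K → x ≠ 0 → x⁻¹ ∈ K := by
    intro x hx hx0
    have h1 : x ^ (Fintype.card F - 1) = 1 := FiniteField.pow_card_sub_one_eq_one x hx0
    have hc : 2 ≤ Fintype.card F := Fintype.one_lt_card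
    have h3 : x⁻¹ = x ^ (Fintype.card F - 2) := by
      have : x ^ (Fintype.card F - 2) * x = 1 := by
        rw [← pow_succ]
        have : Fintype.card F - 2 + 1 = Fintype.card F - 1 := by omega
        rw [this, h1]
      exact (eq_inv_of_mul_eq_one_left this).symm
    rw [h3]; exact Kpow x hx _
  have Kcube : lam ^ 3 ∈ K := hS
  have tri : ∀ t : F, t ≠ 0 → ∃ k ∈ K, t = k ∨ t = lam * k ∨ t = lam ^ 2 * k := by
    intro t ht
    obtain ⟨j, rfl⟩ := hgen t ht
    refine ⟨(lam ^ 3) ^ (j / 3), Kpow _ Kcube _, ?_⟩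
    have hj : j = 3 * (j / 3) + j % 3 := (Nat.div_add_mod j 3).symm
    have h3 : j % 3 < 3 := Nat.mod_lt _ (by norm_num)
    rw [← pow_mul]
    rcases (by omega : j % 3 = 0 ∨ j % 3 = 1 ∨ j % 3 = 2) with h | h | h
    · left
      rw [h, add_zero] at hj
      rw [← hj]
    · right; left
      rw [h] at hj
      conv_lhs => rw [hj]
      rw [pow_succ, mul_comm]
    · right; right
      rw [h] at hj
      conv_lhs => rw [hj]
      rw [pow_add, mul_comm]
  have hlam : lam ∈ K := by
    by_contra hl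
    have h1 : (1 : F) + lam ≠ 0 := by
      intro h
      apply hl
      have : lam = -1 := by linear_combination h
      rw [this]; exact Kneg _ Kone
    have h1' : (1 : F) - lam ≠ 0 := by
      intro h
      apply hl
      have : lam = 1 := by linear_combination -h
      rw [this]; exact Kone
    obtain ⟨k, hk, h | h | h⟩ := tri _ h1
    · apply hl
      have : lam = k + -1 := by linear_combination h
      rw [this]; exact Kadd _ _ hk (Kneg _ Kone)
    · apply hl
      have e : lam * (k + -1) = 1 := by linear_combination -h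
      have hne : k + -1 ≠ 0 := by
        intro h0; rw [h0, mul_zero] at e; exact zero_ne_one e
      have : lam = (k + -1)⁻¹ := eq_inv_of_mul_eq_one_left e
      rw [this]; exact Kinv _ (Kadd _ _ hk (Kneg _ Kone)) hne
    · obtain ⟨k', hk', h' | h' | h'⟩ := tri _ h1'
      · apply hl
        have : lam = 1 + -k' := by linear_combination -h'
        rw [this]; exact Kadd _ _ Kone (Kneg _ hk')
      · apply hl
        have e : lam * (k' + 1) = 1 := by linear_combination -h'
        have hne : k' + 1 ≠ 0 := by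
          intro h0; rw [h0, mul_zero] at e; exact zero_ne_one e
        have : lam = (k' + 1)⁻¹ := eq_inv_of_mul_eq_one_left e
        rw [this]; exact Kinv _ (Kadd _ _ hk' Kone) hne
      · have e : lam ^ 2 * (k + k') = 2 := by linear_combination -h - h'
        have hne : k + k' ≠ 0 := by
          intro h0; rw [h0, mul_zero] at e; exact h2 e.symm
        have hl0 : lam ≠ 0 := by
          intro h0; rw [h0] at e; simp at e; exact h2 e.symm
        have hsq : lam ^ 2 ∈ K := by
          have : lam ^ 2 = (1 + 1) * (k + k')⁻¹ := by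
            field_simp
            linear_combination e
          rw [this]
          exact Kmul _ _ (Kadd _ _ Kone Kone) (Kinv _ (Kadd _ _ hk hk') hne)
        apply hl
        have : lam = lam ^ 3 * (lam ^ 2)⁻¹ := by
          field_simp
        rw [this]
        exact Kmul _ _ Kcube (Kinv _ hsq (pow_ne_zero _ hl0))
  intro x
  by_cases hx : x = 0
  · rw [hx]; exact S.zero_mem
  · have hx' : x / k0 ≠ 0 := div_ne_zero hx hk0
    obtain ⟨j, hj⟩ := hgen _ hx'
    have : x = lam ^ j * k0 := by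
      rw [← hj]; field_simp
    rw [this]
    exact Kpow _ hlam j _ hk0S

end FieldLemma

section PowLemma

variable {ι : Type*} [Fintype ι] [DecidableEq ι] {F : Type*} [Field F]

theorem pow_succ_of_split (E N : Matrix ι ι F) (hE : E * E = E) (hEN : E * N = 0) (hNE : N * E = 0)
    (hNN : N * N = 0) (a b : F) (k : ℕ) :
    (a • (1 - E) + b • E + N) ^ (k + 1)
      = a ^ (k + 1) • (1 - E) + b ^ (k + 1) • E + (((k : F) + 1) * a ^ k) • N := by
  induction k with
  | zero => simp
  | succ k ih =>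
    rw [pow_succ, ih]
    simp only [add_mul, mul_add, smul_mul_assoc, mul_smul_comm, sub_mul, mul_sub, one_mul, mul_one,
      hE, hEN, hNE, hNN, sub_self, smul_zero, add_zero, zero_add, sub_zero, smul_smul]
    push_cast
    module

theorem pow_card_of_split [Fintype F] (E N : Matrix ι ι F) (hE : E * E = E) (hEN : E * N = 0)
    (hNE : N * E = 0) (hNN : N * N = 0) (a b : F) :
    (a • (1 - E) + b • E + N) ^ (Fintype.card F) = a • (1 - E) + b • E := by
  have hc : 1 ≤ Fintype.card F := Fintype.card_pos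
  obtain ⟨k, hk⟩ : ∃ k, Fintype.card F = k + 1 := ⟨Fintype.card F - 1, by omega⟩
  have h0 : ((k : F) + 1) = 0 := by
    have := Nat.cast_card_eq_zero F
    rw [hk] at this
    push_cast at this
    exact this
  have ha : a ^ (k + 1) = a := by rw [← hk]; exact FiniteField.pow_card a
  have hb : b ^ (k + 1) = b := by rw [← hk]; exact FiniteField.pow_card b
  rw [hk, pow_succ_of_split E N hE hEN hNE hNN, h0, ha, hb]
  simp

end PowLemma

section TmMore

variable {ι : Type*} [Fintype ι] [DecidableEq ι] {F : Type*} [Field F]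
variable {H : Subgroup (Matrix.SpecialLinearGroup ι F)}

theorem Tm.of_vmv_eq {a φ a' φ' : ι → F} (h : Tm H a φ) (e : vecMulVec a φ = vecMulVec a' φ') :
    Tm H a' φ' := by
  obtain ⟨g, hg, hg'⟩ := h
  exact ⟨g, hg, by rw [hg', e]⟩

theorem eq_top_of_Tm_single [Nontrivial ι]
    (h : ∀ i j : ι, i ≠ j → ∀ c : F, Tm H (c • Pi.single i 1) (Pi.single j 1)) : H = ⊤ := by
  apply Cfsg.Agent.Lib.Helper45.eq_top_of_transvections
  intro i j hij c
  obtain ⟨g, hg, hg'⟩ := h i j hij c
  have : g = Matrix.SpecialLinearGroup.transvection hij c := by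
    apply Subtype.ext
    change (g : Matrix ι ι F) = _
    rw [hg', Matrix.SpecialLinearGroup.transvection_coe]
    congr 1
    ext x y
    simp only [vecMulVec_apply, Pi.smul_apply, Pi.single_apply, Matrix.single_apply, smul_eq_mul]
    by_cases hx : x = i
    · by_cases hy : y = j
      · subst hx hy; simp
      · have hy' : ¬ j = y := fun h => hy h.symm
        simp [hx, hy, hy']
    · have hx' : ¬ i = x := fun h => hx h.symm
      simp [hx, hx']
  rw [← this]; exact hg

end TmMore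

section OddCase

variable {F : Type*} [Field F]

/-- idempotent part -/
def oE (lam D : F) : Matrix (Fin 3) (Fin 3) F :=
  !![1, (lam - 1) * (1 - 3 * lam - lam ^ 2) / (lam * D),
      (lam - 1) ^ 2 * (lam ^ 2 + lam - 1) / (lam * D);
     0, 0, 0; 0, 0, 0]

/-- nilpotent part -/
def oN (lam : F) : Matrix (Fin 3) (Fin 3) F :=
  !![0, -(lam - 1) ^ 4 / lam, -(lam - 1) ^ 4 / lam;
     0, -(lam - 1) ^ 3 / lam, -(lam - 1) ^ 3 / lam;
     0, (lam - 1) ^ 3 / lam, (lam - 1) ^ 3 / lam]

def oJ (lam D : F) : Matrix (Fin 3) (Fin 3) F :=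
  lam • (1 - oE lam D) + (lam⁻¹) ^ 2 • oE lam D + oN lam

def oU (F : Type*) [Field F] : Matrix (Fin 3) (Fin 3) F := !![1, 0, 0; 1, 1, 0; 0, 1, 1]

def oG (lam : F) : Matrix (Fin 3) (Fin 3) F :=
  !![-lam, lam - lam⁻¹, -(lam - 1) ^ 2 / lam ^ 2;
     0, lam⁻¹, -(lam - 1) * (lam ^ 2 - lam + 1) / lam ^ 2;
     0, -lam⁻¹, (lam ^ 3 - 3 * lam ^ 2 + 2 * lam - 1) / lam ^ 2]

theorem oE_mul_oE (lam D : F) : oE lam D * oE lam D = oE lam D := by
  unfold oE
  ext i j
  fin_cases i <;> fin_cases j <;> simp [Matrix.mul_apply, Fin.sum_univ_three]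

theorem oE_mul_oN (lam D : F) (h0 : lam ≠ 0) (hD : D ≠ 0) (hDd : D = lam ^ 2 + lam + 1) :
    oE lam D * oN lam = 0 := by
  unfold oE oN
  ext i j
  fin_cases i <;> fin_cases j <;> simp [Matrix.mul_apply, Fin.sum_univ_three] <;> field_simp <;>
    rw [hDd] <;> ring

theorem oN_mul_oE (lam D : F) : oN lam * oE lam D = 0 := by
  unfold oE oN
  ext i j
  fin_cases i <;> fin_cases j <;> simp [Matrix.mul_apply, Fin.sum_univ_three]

theorem oN_mul_oN (lam : F) : oN lam * oN lam = 0 := by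
  unfold oN
  ext i j
  fin_cases i <;> fin_cases j <;> simp [Matrix.mul_apply, Fin.sum_univ_three] <;> ring

theorem det_oU : (oU F).det = 1 := by
  unfold oU
  simp [Matrix.det_fin_three]

theorem det_oG (lam : F) (h0 : lam ≠ 0) : (oG lam).det = 1 := by
  unfold oG
  simp [Matrix.det_fin_three]
  field_simp
  ring

theorem det_oJ (lam D : F) (h0 : lam ≠ 0) : (oJ lam D).det = 1 := by
  unfold oJ oE oN
  simp [Matrix.det_fin_three]
  field_simp
  ring

theorem oU_oG_oU (lam D : F) (h0 : lam ≠ 0) (hD : D ≠ 0) (hDd : D = lam ^ 2 + lam + 1) :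
    oU F * oG lam * oU F = oJ lam D * oG lam := by
  unfold oJ oE oN oU oG
  ext i j
  fin_cases i <;> fin_cases j <;> simp [Matrix.mul_apply, Fin.sum_univ_three] <;> field_simp <;>
    (try rw [hDd]) <;> ring

set_option maxHeartbeats 1600000 in
theorem gen_odd [Fintype F] (h2 : (2 : F) ≠ 0) (lam D : F) (h0 : lam ≠ 0) (h1 : lam ≠ 1)
    (hD : D ≠ 0) (hDd : D = lam ^ 2 + lam + 1) (hgen : ∀ t : F, t ≠ 0 → ∃ k : ℕ, t = lam ^ k)
    (H : Subgroup (Matrix.SpecialLinearGroup (Fin 3) F))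
    (u jj : Matrix.SpecialLinearGroup (Fin 3) F) (hu : u ∈ H) (hj : jj ∈ H)
    (hu' : (u : Matrix (Fin 3) (Fin 3) F) = oU F)
    (hj' : (jj : Matrix (Fin 3) (Fin 3) F) = oJ lam D) : H = ⊤ := by
  have hl : lam - 1 ≠ 0 := sub_ne_zero.mpr h1
  obtain ⟨hh, hhdef⟩ : ∃ hh, hh = jj ^ (Fintype.card F) := ⟨_, rfl⟩
  have hhH : hh ∈ H := by rw [hhdef]; exact H.pow_mem hj _
  have hh' : (hh : Matrix (Fin 3) (Fin 3) F) = lam • (1 - oE lam D) + (lam⁻¹) ^ 2 • oE lam D := by
    rw [hhdef, Matrix.SpecialLinearGroup.coe_pow, hj']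
    exact pow_card_of_split _ _ (oE_mul_oE lam D) (oE_mul_oN lam D h0 hD hDd) (oN_mul_oE lam D)
      (oN_mul_oN lam) _ _
  obtain ⟨k, hk⟩ : ∃ k : F, k = -(lam - 1) ^ 3 / lam ^ 2 := ⟨_, rfl⟩
  have hk0 : k ≠ 0 := by
    rw [hk]
    exact div_ne_zero (neg_ne_zero.mpr (pow_ne_zero _ hl)) (pow_ne_zero _ h0)
  have T1 : Tm H ![lam - 1, 1, -1] ![0, k, k] := by
    refine ⟨hh⁻¹ * jj, H.mul_mem (H.inv_mem hhH) hj, ?_⟩
    have e1 : oJ lam D = (hh : Matrix (Fin 3) (Fin 3) F) * (1 + vecMulVec ![lam - 1, 1, -1] ![0, k, k]) := by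
      rw [hh', hk]
      unfold oJ oE oN
      ext i j
      fin_cases i <;> fin_cases j <;>
        simp [Matrix.mul_apply, Fin.sum_univ_three, vecMulVec_apply] <;> field_simp <;>
        (try rw [hDd]) <;> ring
    have e2 : ((hh⁻¹ : Matrix.SpecialLinearGroup (Fin 3) F) : Matrix (Fin 3) (Fin 3) F)
        * (hh : Matrix (Fin 3) (Fin 3) F) = 1 := by
      rw [← Matrix.SpecialLinearGroup.coe_mul, inv_mul_cancel, Matrix.SpecialLinearGroup.coe_one]
    rw [Matrix.SpecialLinearGroup.coe_mul, hj', e1, ← Matrix.mul_assoc, e2, Matrix.one_mul]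
  have T2 : Tm H ![lam - 1, lam, 0] ![0, 0, k] := by
    have := Tm.conj hu (a := ![lam - 1, 1, -1]) (φ := ![0, 0, k]) (T1.congr rfl (by
      rw [hu']; unfold oU; ext i
      fin_cases i <;> simp [Matrix.vecMul, dotProduct, Fin.sum_univ_three]))
    refine this.congr ?_ rfl
    rw [hu']; unfold oU; ext i
    fin_cases i <;> simp [Matrix.mulVec, dotProduct, Fin.sum_univ_three]
  have T3 : Tm H ![(lam⁻¹) ^ 2 * (lam - 1) + ((lam⁻¹) ^ 2 - lam) *
      ((lam - 1) * (1 - 3 * lam - lam ^ 2) / (lam * D)) * lam, lam ^ 2, 0] ![0, 0, k / lam] := by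
    have := Tm.conj hhH (a := ![lam - 1, lam, 0]) (φ := ![0, 0, k / lam]) (T2.congr rfl (by
      rw [hh']; unfold oE; ext i
      fin_cases i <;> simp [Matrix.vecMul, dotProduct, Fin.sum_univ_three]
      field_simp))
    refine this.congr ?_ rfl
    rw [hh']; unfold oE; ext i
    fin_cases i <;> simp [Matrix.mulVec, dotProduct, Fin.sum_univ_three, -mul_eq_mul_right_iff,
      -mul_eq_mul_left_iff] <;> ring
  have T2' : Tm H ![lam * (lam - 1), lam ^ 2, 0] ![0, 0, k / lam] := by
    refine T2.of_vmv_eq ?_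
    ext i j
    fin_cases i <;> fin_cases j <;> simp [vecMulVec_apply] <;> field_simp
  have T4 : Tm H ![1, 0, 0] ![0, 0, -2 * (lam - 1) ^ 6 / lam ^ 5] := by
    have := (T2'.neg_left (by simp [dotProduct, Fin.sum_univ_three])).add_left T3
      (by simp [dotProduct, Fin.sum_univ_three])
    refine this.of_vmv_eq ?_
    rw [hk]
    ext i j
    fin_cases i <;> fin_cases j <;> simp [vecMulVec_apply]
    field_simp
    rw [hDd]
    ring
  obtain ⟨S, hSdef⟩ : ∃ S : AddSubgroup F, ∀ s, s ∈ S ↔ Tm H ![1, 0, 0] ![0, 0, s] := ⟨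
    { carrier := {s | Tm H ![1, 0, 0] ![0, 0, s]}
      add_mem' := by
        intro a b ha hb
        refine (Tm.add_right ha hb (by simp [dotProduct, Fin.sum_univ_three])).congr rfl ?_
        ext i; fin_cases i <;> simp
      zero_mem' := by
        refine (Tm.zero_right H ![1, 0, 0]).congr rfl ?_
        ext i; fin_cases i <;> simp
      neg_mem' := by
        intro a ha
        refine (Tm.neg_right ha (by simp [dotProduct, Fin.sum_univ_three])).congr rfl ?_
        ext i; fin_cases i <;> simp }, fun s => Iff.rfl⟩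
  have hS : ∀ s ∈ S, lam ^ 3 * s ∈ S := by
    intro s hs
    have hs' : Tm H ![1, 0, 0] ![0, 0, s] := (hSdef s).mp hs
    have q1 : Tm H ((hh : Matrix (Fin 3) (Fin 3) F) *ᵥ ![1, 0, 0]) ![0, 0, lam ^ 2 * s] := by
      refine hs'.of_vmv_eq ?_
      rw [hh']; unfold oE
      ext i j
      fin_cases i <;> fin_cases j <;>
        simp [vecMulVec_apply, Matrix.mulVec, dotProduct, Fin.sum_univ_three]
      field_simp
    have q2 := Tm.conj' hhH q1
    rw [hSdef]
    refine q2.congr rfl ?_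
    rw [hh']; unfold oE; ext i
    fin_cases i <;> simp [Matrix.vecMul, dotProduct, Fin.sum_univ_three]
    ring
  have A13 : ∀ s : F, Tm H ![1, 0, 0] ![0, 0, s] := by
    intro s
    rw [← hSdef]
    exact addSubgroup_eq_top_of_cube_stable h2 lam hgen S (-2 * (lam - 1) ^ 6 / lam ^ 5)
      (div_ne_zero (mul_ne_zero (neg_ne_zero.mpr h2) (pow_ne_zero _ hl)) (pow_ne_zero _ h0))
      ((hSdef _).mpr T4) hS s
  have A12 : ∀ s : F, Tm H ![1, 0, 0] ![0, s, 0] := by
    intro s
    have q1 := T1.conj_tm (by simp [dotProduct, Fin.sum_univ_three]) (A13 (s / k))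
    have q2 : Tm H ![1, 0, 0] ![0, s, s / k + s] := by
      refine q1.congr ?_ ?_
      · ext i; fin_cases i <;> simp [dotProduct, Fin.sum_univ_three]
      · ext i; fin_cases i <;> simp [dotProduct, Fin.sum_univ_three] <;> field_simp
    refine (q2.add_right (A13 (-(s / k + s))) (by simp [dotProduct, Fin.sum_univ_three])).congr rfl ?_
    ext i; fin_cases i <;> simp
  have A1 : ∀ x y : F, Tm H ![1, 0, 0] ![0, x, y] := by
    intro x y
    refine ((A12 x).add_right (A13 y) (by simp [dotProduct, Fin.sum_univ_three])).congr rfl ?_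
    ext i; fin_cases i <;> simp
  have B0 : ∀ x z : F, Tm H ![1, 1, 0] ![x, -x, z] := by
    intro x z
    have := Tm.conj hu (a := ![1, 0, 0]) (φ := ![x, -x, z]) ((A1 (z - x) z).congr rfl (by
      rw [hu']; unfold oU; ext i
      fin_cases i <;> simp [Matrix.vecMul, dotProduct, Fin.sum_univ_three] <;> ring))
    refine this.congr ?_ rfl
    rw [hu']; unfold oU; ext i
    fin_cases i <;> simp [Matrix.mulVec, dotProduct, Fin.sum_univ_three]
  have B1 : ∀ x z : F, Tm H ![0, 1, 0] ![x, 0, z] := by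
    intro x z
    refine ((A1 (-1) 0).conj_tm (by simp [dotProduct, Fin.sum_univ_three]) (B0 x z)).congr ?_ ?_
    · ext i; fin_cases i <;> simp [dotProduct, Fin.sum_univ_three]
    · ext i; fin_cases i <;> simp [dotProduct, Fin.sum_univ_three]
  have C0 : ∀ x y : F, Tm H ![0, 1, 1] ![x, y, -y] := by
    intro x y
    have := Tm.conj hu (a := ![0, 1, 0]) (φ := ![x, y, -y]) ((B1 (x + y) (-y)).congr rfl (by
      rw [hu']; unfold oU; ext i
      fin_cases i <;> simp [Matrix.vecMul, dotProduct, Fin.sum_univ_three]))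
    refine this.congr ?_ rfl
    rw [hu']; unfold oU; ext i
    fin_cases i <;> simp [Matrix.mulVec, dotProduct, Fin.sum_univ_three]
  have C1 : ∀ x y : F, Tm H ![0, 0, 1] ![x, y, 0] := by
    intro x y
    refine ((B1 0 (-1)).conj_tm (by simp [dotProduct, Fin.sum_univ_three]) (C0 x y)).congr ?_ ?_
    · ext i; fin_cases i <;> simp [dotProduct, Fin.sum_univ_three]
    · ext i; fin_cases i <;> simp [dotProduct, Fin.sum_univ_three]
  apply eq_top_of_Tm_single
  intro i j hij c
  fin_cases i <;> fin_cases j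
  · exact absurd rfl hij
  · refine (A1 c 0).of_vmv_eq ?_
    ext x y; fin_cases x <;> fin_cases y <;> simp [vecMulVec_apply]
  · refine (A1 0 c).of_vmv_eq ?_
    ext x y; fin_cases x <;> fin_cases y <;> simp [vecMulVec_apply]
  · refine (B1 c 0).of_vmv_eq ?_
    ext x y; fin_cases x <;> fin_cases y <;> simp [vecMulVec_apply]
  · exact absurd rfl hij
  · refine (B1 0 c).of_vmv_eq ?_
    ext x y; fin_cases x <;> fin_cases y <;> simp [vecMulVec_apply]
  · refine (C1 c 0).of_vmv_eq ?_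
    ext x y; fin_cases x <;> fin_cases y <;> simp [vecMulVec_apply]
  · refine (C1 0 c).of_vmv_eq ?_
    ext x y; fin_cases x <;> fin_cases y <;> simp [vecMulVec_apply]
  · exact absurd rfl hij

end OddCase

section EvenCase

variable {F : Type*} [Field F]

def eV (ε : F) : Matrix (Fin 3) (Fin 3) F := !![1, 1, ε; 0, 1, 1; 0, 0, 1]

def eG (ε : F) : Matrix (Fin 3) (Fin 3) F := !![0, -ε, 1; 0, -1, 0; 1, 0, 0]

theorem Nlow_three : Nlow 3 F = !![0, 0, 0; 1, 0, 0; 0, 1, 0] := by
  ext i j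
  fin_cases i <;> fin_cases j <;> simp [Nlow]

theorem det_eV (ε : F) : (eV ε).det = 1 := by
  unfold eV
  simp [Matrix.det_fin_three]

theorem det_eG (ε : F) : (eG ε).det = 1 := by
  unfold eG
  simp [Matrix.det_fin_three]

theorem det_one_sub_Nlow_three : (1 - Nlow 3 F).det = 1 := by
  rw [Nlow_three]
  simp [Matrix.det_fin_three]

theorem eG_mul (ε : F) : eG ε * (1 - Nlow 3 F) = eV ε * eG ε := by
  rw [Nlow_three]
  unfold eV eG
  ext i j
  fin_cases i <;> fin_cases j <;> simp [Matrix.mul_apply, Fin.sum_univ_three]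

theorem gen_even (h2 : (2 : F) = 0) (μ : F) (hgen : ∀ t : F, t ≠ 0 → ∃ k : ℕ, t = μ ^ k)
    (H : Subgroup (Matrix.SpecialLinearGroup (Fin 3) F))
    (u v : Matrix.SpecialLinearGroup (Fin 3) F) (hu : u ∈ H) (hv : v ∈ H)
    (hu' : (u : Matrix (Fin 3) (Fin 3) F) = 1 - Nlow 3 F)
    (hv' : (v : Matrix (Fin 3) (Fin 3) F) = eV (μ + 1)) : H = ⊤ := by
  have c : Tm H (Pi.single (0 : Fin 3) 1) (Pi.single (2 : Fin 3) 1) := by
    refine ⟨v * v, H.mul_mem hv hv, ?_⟩
    rw [Matrix.SpecialLinearGroup.coe_mul, hv']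
    unfold eV
    ext i j
    fin_cases i <;> fin_cases j <;>
      simp [Matrix.mul_apply, Fin.sum_univ_three, vecMulVec_apply]
    · linear_combination h2
    · linear_combination (μ + 1) * h2
    · linear_combination h2
  have s1 := stage1 (by norm_num) H u hu hu' 0 2 rfl rfl c
  obtain ⟨g12, hg12, hg12'⟩ := s1 0 1 (by decide)
  obtain ⟨g23, hg23, hg23'⟩ := s1 1 2 (by decide)
  have hμ : Tm H (μ • Pi.single (0 : Fin 3) 1) (Pi.single (2 : Fin 3) 1) := by
    refine ⟨(g12 * g23)⁻¹ * v, H.mul_mem (H.inv_mem (H.mul_mem hg12 hg23)) hv, ?_⟩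
    have e1 : eV (μ + 1) = ((g12 * g23 : Matrix.SpecialLinearGroup (Fin 3) F) : Matrix (Fin 3) (Fin 3) F)
        * (1 + vecMulVec (μ • Pi.single (0 : Fin 3) 1) (Pi.single (2 : Fin 3) 1)) := by
      rw [Matrix.SpecialLinearGroup.coe_mul, hg12', hg23']
      unfold eV
      ext i j
      fin_cases i <;> fin_cases j <;>
        simp [Matrix.mul_apply, Fin.sum_univ_three, vecMulVec_apply]
    have e2 : (((g12 * g23)⁻¹ : Matrix.SpecialLinearGroup (Fin 3) F) : Matrix (Fin 3) (Fin 3) F)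
        * ((g12 * g23 : Matrix.SpecialLinearGroup (Fin 3) F) : Matrix (Fin 3) (Fin 3) F) = 1 := by
      rw [← Matrix.SpecialLinearGroup.coe_mul, inv_mul_cancel, Matrix.SpecialLinearGroup.coe_one]
    rw [Matrix.SpecialLinearGroup.coe_mul, hv', e1, ← Matrix.mul_assoc, e2, Matrix.one_mul]
  exact stage2 (by norm_num) H s1 0 2 (by decide) μ hμ hgen

end EvenCase

section Final

variable {F : Type*} [Field F] [Fintype F]

theorem exists_two_conj_regular_unipotent_three :
    ∃ u g : Matrix.SpecialLinearGroup (Fin 3) F,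
      IsNilpotent ((u : Matrix (Fin 3) (Fin 3) F) - 1) ∧
      ((u : Matrix (Fin 3) (Fin 3) F) - 1) ^ 2 ≠ 0 ∧
      Subgroup.closure ({u, g * u * g⁻¹} : Set (Matrix.SpecialLinearGroup (Fin 3) F)) = ⊤ := by
  classical
  obtain ⟨μu, hμu⟩ := IsCyclic.exists_generator (α := Fˣ)
  obtain ⟨μ, hμdef⟩ : ∃ μ : F, μ = (μu : F) := ⟨_, rfl⟩
  have hμ0 : μ ≠ 0 := by rw [hμdef]; exact μu.ne_zero
  have hgen : ∀ t : F, t ≠ 0 → ∃ k : ℕ, t = μ ^ k := by
    intro t ht
    have h1 := hμu (Units.mk0 t ht)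
    rw [← mem_powers_iff_mem_zpowers] at h1
    obtain ⟨k, hk⟩ := h1
    refine ⟨k, ?_⟩
    have h2 := congrArg Units.val hk
    rw [hμdef]
    simpa using h2.symm
  by_cases h2 : (2 : F) = 0
  · obtain ⟨u, hu'⟩ : ∃ u : Matrix.SpecialLinearGroup (Fin 3) F,
        (u : Matrix (Fin 3) (Fin 3) F) = 1 - Nlow 3 F := ⟨⟨_, det_one_sub_Nlow_three⟩, rfl⟩
    obtain ⟨g, hg'⟩ : ∃ g : Matrix.SpecialLinearGroup (Fin 3) F,
        (g : Matrix (Fin 3) (Fin 3) F) = eG (μ + 1) := ⟨⟨_, det_eG _⟩, rfl⟩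
    obtain ⟨v, hv'⟩ : ∃ v : Matrix.SpecialLinearGroup (Fin 3) F,
        (v : Matrix (Fin 3) (Fin 3) F) = eV (μ + 1) := ⟨⟨_, det_eV _⟩, rfl⟩
    refine ⟨u, g, ?_, ?_, ?_⟩
    · refine ⟨3, ?_⟩
      rw [hu', Nlow_three]
      ext i j
      fin_cases i <;> fin_cases j <;> simp [pow_succ, Matrix.mul_apply, Fin.sum_univ_three]
    · rw [hu', Nlow_three]
      intro h
      have := congrFun (congrFun h 2) 0
      simp [pow_succ, Matrix.mul_apply, Fin.sum_univ_three] at this
    · have hconj : g * u * g⁻¹ = v := by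
        rw [mul_inv_eq_iff_eq_mul]
        apply Subtype.ext
        change (↑(g * u) : Matrix (Fin 3) (Fin 3) F) = ↑(v * g)
        rw [Matrix.SpecialLinearGroup.coe_mul, Matrix.SpecialLinearGroup.coe_mul, hg', hu', hv']
        exact eG_mul (μ + 1)
      rw [hconj]
      exact gen_even h2 μ hgen _ u v (Subgroup.subset_closure (by simp))
        (Subgroup.subset_closure (by simp)) hu' hv'
  · have h3 : μ ^ 3 ≠ 1 := by
      intro h
      obtain ⟨k, hk⟩ := hgen (-1) (by simp)
      have : (-1 : F) ^ 3 = 1 := by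
        rw [hk, ← pow_mul, mul_comm, pow_mul, h, one_pow]
      apply h2
      linear_combination -this
    have h1 : μ ≠ 1 := by
      intro h; apply h3; rw [h]; simp
    have hD : μ ^ 2 + μ + 1 ≠ 0 := by
      intro h; apply h3
      linear_combination (μ - 1) * h
    obtain ⟨u, hu'⟩ : ∃ u : Matrix.SpecialLinearGroup (Fin 3) F,
        (u : Matrix (Fin 3) (Fin 3) F) = oU F := ⟨⟨oU F, det_oU⟩, rfl⟩
    obtain ⟨g, hg'⟩ : ∃ g : Matrix.SpecialLinearGroup (Fin 3) F,
        (g : Matrix (Fin 3) (Fin 3) F) = oG μ := ⟨⟨oG μ, det_oG μ hμ0⟩, rfl⟩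
    obtain ⟨jj, hj'⟩ : ∃ jj : Matrix.SpecialLinearGroup (Fin 3) F,
        (jj : Matrix (Fin 3) (Fin 3) F) = oJ μ (μ ^ 2 + μ + 1) :=
      ⟨⟨oJ μ (μ ^ 2 + μ + 1), det_oJ μ (μ ^ 2 + μ + 1) hμ0⟩, rfl⟩
    refine ⟨u, g, ?_, ?_, ?_⟩
    · refine ⟨3, ?_⟩
      rw [hu']
      unfold oU
      ext i j
      fin_cases i <;> fin_cases j <;> simp [pow_succ, Matrix.mul_apply, Fin.sum_univ_three]
    · rw [hu']
      unfold oU
      intro h
      have := congrFun (congrFun h 2) 0
      simp [pow_succ, Matrix.mul_apply, Fin.sum_univ_three] at this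
    · have hconj : u * (g * u * g⁻¹) = jj := by
        rw [← mul_assoc, mul_inv_eq_iff_eq_mul, ← mul_assoc]
        apply Subtype.ext
        change (↑(u * g * u) : Matrix (Fin 3) (Fin 3) F) = ↑(jj * g)
        rw [Matrix.SpecialLinearGroup.coe_mul, Matrix.SpecialLinearGroup.coe_mul,
          Matrix.SpecialLinearGroup.coe_mul, hg', hu', hj']
        exact oU_oG_oU μ _ hμ0 hD rfl
      refine gen_odd h2 μ (μ ^ 2 + μ + 1) hμ0 h1 hD rfl hgen _ u jj
        (Subgroup.subset_closure (by simp)) ?_ hu' hj'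
      rw [← hconj]
      exact Subgroup.mul_mem _ (Subgroup.subset_closure (by simp)) (Subgroup.subset_closure (by simp))

end Final

end Cfsg.Agent.Lib.Helper46
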