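import Mathlib
import Cfsg.Agent.Lib.Helper46.SLnRegGen

set_option autoImplicit false
set_option linter.unusedSimpArgs false
set_option linter.unusedSectionVars false

namespace Cfsg.Agent.Lib.Helper46
open Matrix

theorem corner_frob {K : Type*} [CommRing K] (φ : K →+* K) (hφ : ∀ f : K, f * f = f → φ f = f)
    (P e T I₂ : K) (hT : φ T = T) (he : e * e = e) (hPe : P * e = P)
    (hP2 : P * P = T * P - e) (hI : I₂ * (T * T - 4) = 1) : φ (φ P) = P := by
  obtain ⟨a, ha⟩ : ∃ a, a = φ P := ⟨_, rfl⟩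
  have hφe : φ e = e := hφ e he
  have ha2 : a * a = T * a - e := by
    have := congrArg φ hP2
    rw [map_mul, map_sub, map_mul, hT, hφe, ← ha] at this
    exact this
  have hae : a * e = a := by
    have := congrArg φ hPe
    rw [map_mul, hφe, ← ha] at this
    exact this
  have h0 : (a - P) * (a - (T * e - P)) = 0 := by
    linear_combination ha2 - T * hae + T * hPe - hP2
  obtain ⟨D, hD⟩ : ∃ D, D = 2 * P - T * e := ⟨_, rfl⟩
  have hDe : D * e = D := by rw [hD]; linear_combination 2 * hPe - T * he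
  have hD2 : D * D = (T * T - 4) * e := by
    rw [hD]; linear_combination 4 * hP2 - 4 * T * hPe + T * T * he
  obtain ⟨f₁, hf₁⟩ : ∃ f₁, f₁ = I₂ * (a - (T * e - P)) * D := ⟨_, rfl⟩
  obtain ⟨f₂, hf₂⟩ : ∃ f₂, f₂ = I₂ * (P - a) * D := ⟨_, rfl⟩
  have hsum : f₁ + f₂ = e := by
    rw [hf₁, hf₂]
    have : I₂ * (a - (T * e - P)) * D + I₂ * (P - a) * D = I₂ * (D * D) := by rw [hD]; ring
    rw [this, hD2]
    linear_combination e * hI
  have hprod : f₁ * f₂ = 0 := by
    rw [hf₁, hf₂]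
    linear_combination (- I₂ * I₂ * D * D) * h0
  have hf₁e : f₁ * e = f₁ := by rw [hf₁]; linear_combination I₂ * (a - (T * e - P)) * hDe
  have hf₂e : f₂ * e = f₂ := by rw [hf₂]; linear_combination I₂ * (P - a) * hDe
  have hf₁i : f₁ * f₁ = f₁ := by linear_combination hf₁e - hprod + f₁ * hsum
  have hf₂i : f₂ * f₂ = f₂ := by linear_combination hf₂e - hprod + f₂ * hsum
  have haf₁ : a * f₁ = P * f₁ := by rw [hf₁]; linear_combination I₂ * D * h0
  have haf₂ : a * f₂ = (T * e - P) * f₂ := by rw [hf₂]; linear_combination (- I₂ * D) * h0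
  have hadec : a = P * f₁ + (T * e - P) * f₂ := by
    linear_combination haf₁ + haf₂ - hae - a * hsum
  rw [← ha]
  have h1 := congrArg φ hadec
  rw [map_add, map_mul, map_mul, map_sub, map_mul, hT, hφe, ← ha, hφ f₁ hf₁i, hφ f₂ hf₂i] at h1
  rw [h1]
  linear_combination haf₁ - haf₂ + hPe + P * hsum

theorem comm_cubic_pow {F K : Type*} [Field F] [Fintype F] [CommRing K] [Algebra F K] (x : K)
    (τ : F) (h2 : τ ≠ 2) (h2' : τ ≠ -2)
    (hx : (x - 1) * (x * x - algebraMap F K τ * x + 1) = 0) :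
    x ^ (Fintype.card F ^ 2) = x := by
  obtain ⟨φ, hφdef⟩ : ∃ φ : K →+* K, ∀ y, φ y = y ^ Fintype.card F :=
    ⟨(FiniteField.frobeniusAlgHom F K : K →+* K), fun y => rfl⟩
  have hq : 1 ≤ Fintype.card F := Fintype.card_pos
  have hφ : ∀ f : K, f * f = f → φ f = f := by
    intro f hf
    rw [hφdef]
    obtain ⟨k, hk⟩ : ∃ k, Fintype.card F = k + 1 := ⟨Fintype.card F - 1, by omega⟩
    rw [hk]
    exact IsIdempotentElem.pow_succ_eq k hf
  obtain ⟨T, hTdef⟩ : ∃ T, T = algebraMap F K τ := ⟨_, rfl⟩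
  rw [← hTdef] at hx
  have hT : φ T = T := by
    rw [hφdef, hTdef, ← map_pow, FiniteField.pow_card]
  obtain ⟨I₁, hI₁def⟩ : ∃ I₁, I₁ = algebraMap F K (2 - τ)⁻¹ := ⟨_, rfl⟩
  obtain ⟨I₂, hI₂def⟩ : ∃ I₂, I₂ = algebraMap F K (τ * τ - 4)⁻¹ := ⟨_, rfl⟩
  have hI₁ : I₁ * (2 - T) = 1 := by
    have h : (2 - τ)⁻¹ * (2 - τ) = 1 := inv_mul_cancel₀ (sub_ne_zero.mpr (Ne.symm h2))
    have := congrArg (algebraMap F K) h
    rw [map_mul, map_sub, map_one, map_ofNat, ← hI₁def, ← hTdef] at this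
    exact this
  have hI₂ : I₂ * (T * T - 4) = 1 := by
    have h0 : τ * τ - 4 ≠ 0 := by
      have : τ * τ - 4 = (τ - 2) * (τ + 2) := by ring
      rw [this]
      exact mul_ne_zero (sub_ne_zero.mpr h2) (fun h => h2' (eq_neg_of_add_eq_zero_left h))
    have h : (τ * τ - 4)⁻¹ * (τ * τ - 4) = 1 := inv_mul_cancel₀ h0
    have := congrArg (algebraMap F K) h
    rw [map_mul, map_sub, map_mul, map_one, map_ofNat, ← hI₂def, ← hTdef] at this
    exact this
  obtain ⟨χ, hχ⟩ : ∃ χ, χ = x * x - T * x + 1 := ⟨_, rfl⟩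
  rw [← hχ] at hx
  have hxχ : x * χ = χ := by linear_combination hx
  have hχχ : χ * χ = (2 - T) * χ := by
    have h0 : χ * χ = (x * x - T * x + 1) * χ := by rw [← hχ]
    have : χ * χ = x * (x * χ) - T * (x * χ) + χ := by
      rw [h0]; ring
    rw [this, hxχ, hxχ]; ring
  obtain ⟨e₀, he₀⟩ : ∃ e₀, e₀ = I₁ * χ := ⟨_, rfl⟩
  have hxe₀ : x * e₀ = e₀ := by rw [he₀]; linear_combination I₁ * hxχ
  have he₀i : e₀ * e₀ = e₀ := by
    rw [he₀]; linear_combination I₁ * I₁ * hχχ + I₁ * χ * hI₁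
  have hχe : (2 - T) * e₀ = χ := by rw [he₀]; linear_combination χ * hI₁
  have hcorner : φ (φ (x - e₀)) = x - e₀ := by
    apply corner_frob φ hφ (x - e₀) (1 - e₀) T I₂ hT
    · linear_combination he₀i
    · linear_combination he₀i - hxe₀
    · linear_combination he₀i - 2 * hxe₀ - hχ - hχe
    · exact hI₂
  have h1 : x ^ (Fintype.card F ^ 2) = φ (φ x) := by
    rw [hφdef, hφdef, ← pow_mul, sq]
  rw [h1]
  have h2 : x = e₀ + (x - e₀) := by ring
  conv_lhs => rw [h2]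
  rw [map_add, map_add, hcorner, hφ e₀ he₀i, hφ e₀ he₀i]
  ring

open Polynomial in
theorem cubic_pow_card_sq {F A : Type*} [Field F] [Fintype F] [Ring A] [Algebra F A] (x : A)
    (τ : F) (h2 : τ ≠ 2) (h2' : τ ≠ -2)
    (hx : (x - 1) * (x * x - τ • x + 1) = 0) :
    x ^ (Fintype.card F ^ 2) = x := by
  obtain ⟨c, hc⟩ : ∃ c : F[X], c = (X - 1) * (X * X - C τ * X + 1) := ⟨_, rfl⟩
  have hdvd : c ∣ X ^ (Fintype.card F ^ 2) - X := by
    rw [← AdjoinRoot.mk_eq_zero]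
    rw [map_sub, map_pow, AdjoinRoot.mk_X, sub_eq_zero]
    apply comm_cubic_pow (F := F) (AdjoinRoot.root c) τ h2 h2'
    have h : AdjoinRoot.mk c ((X - 1) * (X * X - C τ * X + 1)) = 0 := by
      rw [← hc]; exact AdjoinRoot.mk_self
    simpa [AdjoinRoot.mk_X, AdjoinRoot.mk_C, AdjoinRoot.algebraMap_eq] using h
  obtain ⟨d, hd⟩ := hdvd
  have h := congrArg (aeval x) hd
  rw [map_mul, hc] at h
  have h3 : aeval x ((X - 1) * (X * X - C τ * X + 1) : F[X]) = 0 := by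
    simp only [map_mul, map_sub, map_add, aeval_X, map_one, aeval_C]
    rw [← hx, Algebra.smul_def]
  rw [h3, zero_mul, map_sub, map_pow, aeval_X, sub_eq_zero] at h
  exact h

section General
variable {ι : Type*} [Fintype ι] [DecidableEq ι] {F : Type*} [Field F]

theorem one_add_vmv_mulVec (a φ x : ι → F) :
    (1 + vecMulVec a φ) *ᵥ x = x + (φ ⬝ᵥ x) • a := by
  rw [Matrix.add_mulVec, Matrix.one_mulVec, vecMulVec_mulVec]
  ext i
  simp [mul_comm]

theorem vecMul_one_add_vmv (a φ x : ι → F) :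
    x ᵥ* (1 + vecMulVec a φ) = x + (x ⬝ᵥ a) • φ := by
  rw [Matrix.vecMul_add, Matrix.vecMul_one, vecMul_vecMulVec]

theorem one_add_vmv_pow (a φ : ι → F) (h : φ ⬝ᵥ a = 0) (k : ℕ) :
    (1 + vecMulVec a φ) ^ k = 1 + (k : F) • vecMulVec a φ := by
  induction k with
  | zero => simp
  | succ k ih =>
    rw [pow_succ, ih, ← smul_vecMulVec, one_add_vmv_mul_one_add_vmv, h, zero_smul, add_zero,
      smul_vecMulVec, add_assoc]
    push_cast
    rw [add_smul, one_smul]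

theorem exists_sl_vmv (a φ : ι → F) (h : φ ⬝ᵥ a = 0) :
    ∃ g : Matrix.SpecialLinearGroup ι F, (g : Matrix ι ι F) = 1 + vecMulVec a φ := by
  refine ⟨⟨1 + vecMulVec a φ, ?_⟩, rfl⟩
  have := Matrix.det_one_add_replicateCol_mul_replicateRow (ι := Unit) a φ
  rw [h, add_zero] at this
  rw [← this]
  congr 2
  ext i j
  simp [vecMulVec_apply, Matrix.mul_apply]

theorem extract_ss [Fintype F] (H : Subgroup (Matrix.SpecialLinearGroup ι F))
    (t R : Matrix.SpecialLinearGroup ι F) (a φ : ι → F)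
    (ht : (t : Matrix ι ι F) = 1 + vecMulVec a φ) (hφa : φ ⬝ᵥ a = 0)
    (hcomm : Commute t R) (τ : F) (h2 : τ ≠ 2) (h2' : τ ≠ -2)
    (hR : ((R : Matrix ι ι F) - 1) *
      ((R : Matrix ι ι F) * (R : Matrix ι ι F) - τ • (R : Matrix ι ι F) + 1) = 0)
    (hmem : t * R ∈ H) : R ∈ H ∧ t ∈ H := by
  have h1 : t ^ (Fintype.card F ^ 2) = 1 := by
    apply Subtype.ext
    rw [Matrix.SpecialLinearGroup.coe_pow, ht, one_add_vmv_pow a φ hφa]
    push_cast
    rw [Nat.cast_card_eq_zero F]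
    simp
  have h3 : R ^ (Fintype.card F ^ 2) = R := by
    apply Subtype.ext
    rw [Matrix.SpecialLinearGroup.coe_pow]
    exact cubic_pow_card_sq _ τ h2 h2' hR
  have h4 : R ∈ H := by
    have := H.pow_mem hmem (Fintype.card F ^ 2)
    rw [hcomm.mul_pow, h1, h3, one_mul] at this
    exact this
  refine ⟨h4, ?_⟩
  have := H.mul_mem hmem (H.inv_mem h4)
  rwa [mul_inv_cancel_right] at this

theorem vmv_mul_vmv (a b φ ψ : ι → F) :
    vecMulVec a φ * vecMulVec b ψ = (φ ⬝ᵥ b) • vecMulVec a ψ := by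
  rw [vecMulVec_mul_vecMulVec, vecMulVec_smul]

theorem cubic_of_pair (a₁ a₂ φ₁ φ₂ : ι → F) (κ : F) (h11 : φ₁ ⬝ᵥ a₁ = 0) (h12 : φ₁ ⬝ᵥ a₂ = 1)
    (h21 : φ₂ ⬝ᵥ a₁ = -κ) (h22 : φ₂ ⬝ᵥ a₂ = 0) (M : Matrix ι ι F)
    (hM : M = (1 + vecMulVec a₁ φ₁) * (1 + vecMulVec a₂ φ₂)) :
    (M - 1) * (M * M - (2 - κ) • M + 1) = 0 := by
  obtain ⟨p, hp⟩ : ∃ p, p = vecMulVec a₁ φ₁ := ⟨_, rfl⟩
  obtain ⟨q, hq⟩ : ∃ q, q = vecMulVec a₂ φ₂ := ⟨_, rfl⟩
  obtain ⟨r, hr⟩ : ∃ r, r = vecMulVec a₁ φ₂ := ⟨_, rfl⟩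
  obtain ⟨s, hs⟩ : ∃ s, s = vecMulVec a₂ φ₁ := ⟨_, rfl⟩
  have pp : p * p = 0 := by rw [hp, vmv_mul_vmv, h11, zero_smul]
  have pq : p * q = r := by rw [hp, hq, vmv_mul_vmv, h12, one_smul, hr]
  have pr : p * r = 0 := by rw [hp, hr, vmv_mul_vmv, h11, zero_smul]
  have ps : p * s = p := by rw [hp, hs, vmv_mul_vmv, h12, one_smul]
  have qp : q * p = (-κ) • s := by rw [hp, hq, vmv_mul_vmv, h21, hs]
  have qq : q * q = 0 := by rw [hq, vmv_mul_vmv, h22, zero_smul]
  have qr : q * r = (-κ) • q := by rw [hq, hr, vmv_mul_vmv, h21]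
  have qs : q * s = 0 := by rw [hq, hs, vmv_mul_vmv, h22, zero_smul]
  have rp : r * p = (-κ) • p := by rw [hp, hr, vmv_mul_vmv, h21]
  have rq : r * q = 0 := by rw [hr, hq, vmv_mul_vmv, h22, zero_smul]
  have rr : r * r = (-κ) • r := by rw [hr, vmv_mul_vmv, h21]
  have rs : r * s = 0 := by rw [hr, hs, vmv_mul_vmv, h22, zero_smul]
  obtain ⟨X, hX⟩ : ∃ X, X = p + q + r := ⟨_, rfl⟩
  have hMX : M = 1 + X := by
    rw [hM, one_add_vmv_mul_one_add_vmv, h12, one_smul, hX, hp, hq, hr]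
    abel
  have hXX : X * X = r + (-κ) • s + (-κ) • q + (-κ) • p + (-κ) • r := by
    rw [hX]
    simp only [add_mul, mul_add, pp, pq, pr, qp, qq, qr, rp, rq, rr]
    module
  have hXXX : X * (X * X) = (-κ) • p + (-κ) • r + (-κ) • q + (κ * κ) • s + (κ * κ) • q +
      (-κ) • r + (κ * κ) • p + (κ * κ) • r := by
    rw [hXX, hX]
    simp only [add_mul, mul_add, mul_smul_comm, pp, pq, pr, ps, qp, qq, qr, qs, rp, rq, rr, rs,
      smul_smul, smul_zero]
    module
  have e2 : (1 + X) * (1 + X) - (2 - κ) • (1 + X) + 1 = X * X + κ • X + κ • 1 := by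
    rw [add_mul, mul_add, mul_add, one_mul, one_mul, mul_one]
    module
  rw [hMX, add_sub_cancel_left, e2, mul_add, mul_add, mul_smul_comm, mul_smul_comm, mul_one, hXXX,
    hXX, hX]
  module

theorem vmv_mulVec (a φ x : ι → F) :
    (vecMulVec a φ) *ᵥ x = (φ ⬝ᵥ x) • a := by
  rw [vecMulVec_mulVec]
  ext i
  simp [mul_comm]
end General

section Chain
variable {n : ℕ} {F : Type*} [Field F]

theorem chain5 [Fintype F] (hn : 5 ≤ n) (H : Subgroup (Matrix.SpecialLinearGroup (Fin n) F))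
    (u R : Matrix.SpecialLinearGroup (Fin n) F)
    (hu : (u : Matrix (Fin n) (Fin n) F) = 1 - Nlow n F)
    (z o w w' l' l : Fin n) (hz : (z : ℕ) = 0) (ho : (o : ℕ) = 1) (hw : (w : ℕ) = 2)
    (hw' : (w' : ℕ) = 3) (hl' : (l' : ℕ) + 2 = n) (hl : (l : ℕ) + 1 = n) (κ : F) (hκ : κ ≠ 0)
    (hR : (R : Matrix (Fin n) (Fin n) F) =
      (1 + vecMulVec ((-κ) • Pi.single o 1) (Pi.single w 1)) *
        (1 + vecMulVec (Pi.single w 1) (Pi.single z 1 + Pi.single o 1)))
    (huH : u ∈ H) (hRH : R ∈ H) (ht : Tm H (Pi.single z 1 - Pi.single o 1) (Pi.single l 1))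
    (hgen : ∀ t : F, t ≠ 0 → ∃ k : ℕ, t = κ ^ k) : H = ⊤ := by
  have ne : ∀ {i j : Fin n}, (i : ℕ) ≠ j → i ≠ j := fun h h' => h (congrArg Fin.val h')
  have hzo : z ≠ o := ne (by omega)
  have hzw : z ≠ w := ne (by omega)
  have how : o ≠ w := ne (by omega)
  have hzw' : z ≠ w' := ne (by omega)
  have how' : o ≠ w' := ne (by omega)
  have hww' : w ≠ w' := ne (by omega)
  have hzl : z ≠ l := ne (by omega)
  have hol : o ≠ l := ne (by omega)
  have hwl : w ≠ l := ne (by omega)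
  have hw'l : w' ≠ l := ne (by omega)
  have hzl' : z ≠ l' := ne (by omega)
  have hol' : o ≠ l' := ne (by omega)
  have hwl' : w ≠ l' := ne (by omega)
  have hRv : ∀ x : Fin n → F, (R : Matrix (Fin n) (Fin n) F) *ᵥ x =
      x + (x z + x o) • Pi.single w 1 + (x w + (x z + x o)) • ((-κ) • Pi.single o 1) := by
    intro x
    rw [hR, ← Matrix.mulVec_mulVec, one_add_vmv_mulVec, one_add_vmv_mulVec]
    simp [add_dotProduct]
  have hvR : ∀ x : Fin n → F, x o = 0 → x w = 0 → x ᵥ* (R : Matrix (Fin n) (Fin n) F) = x := by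
    intro x h1 h2
    rw [hR, ← Matrix.vecMul_vecMul, vecMul_one_add_vmv, vecMul_one_add_vmv]
    simp [h1, h2]
  have RA : (R : Matrix (Fin n) (Fin n) F) *ᵥ (Pi.single z 1 - Pi.single w 1) = Pi.single z 1 := by
    rw [hRv]
    simp [hzo, hzo.symm, hzw, hzw.symm, how, how.symm]
  have RB : (R : Matrix (Fin n) (Fin n) F) *ᵥ (Pi.single o 1 - Pi.single w 1) = Pi.single o 1 := by
    rw [hRv]
    simp [hzo, hzo.symm, hzw, hzw.symm, how, how.symm]
  have RC : (R : Matrix (Fin n) (Fin n) F) *ᵥ (Pi.single w 1 - Pi.single w' 1) =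
      Pi.single w 1 - Pi.single w' 1 - κ • Pi.single o 1 := by
    rw [hRv]
    simp [hzo, hzo.symm, hzw, hzw.symm, how, how.symm, hzw', hzw'.symm, how', how'.symm, hww',
      hww'.symm]
    abel
  obtain ⟨ω, hω⟩ : ∃ ω : Fin n → F, ω = Pi.single l 1 - Pi.single l' 1 := ⟨_, rfl⟩
  have hlu : Pi.single l 1 ᵥ* (u : Matrix (Fin n) (Fin n) F) = ω := by
    rw [hu, hω]; exact single_vecMul_oneSubNlow l l' (by omega)
  have hωR : ω ᵥ* (R : Matrix (Fin n) (Fin n) F) = ω := by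
    apply hvR <;> simp [hω, hol, hol', hwl, hwl']
  have hlR : Pi.single l 1 ᵥ* (R : Matrix (Fin n) (Fin n) F) = Pi.single l 1 := by
    apply hvR <;> simp [hol, hwl]
  have huz : (u : Matrix (Fin n) (Fin n) F) *ᵥ Pi.single z 1 = Pi.single z 1 - Pi.single o 1 := by
    rw [hu]; exact oneSubNlow_mulVec_single z o (by omega)
  have huo : (u : Matrix (Fin n) (Fin n) F) *ᵥ Pi.single o 1 = Pi.single o 1 - Pi.single w 1 := by
    rw [hu]; exact oneSubNlow_mulVec_single o w (by omega)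
  have huw : (u : Matrix (Fin n) (Fin n) F) *ᵥ Pi.single w 1 = Pi.single w 1 - Pi.single w' 1 := by
    rw [hu]; exact oneSubNlow_mulVec_single w w' (by omega)
  have hv₀H : R * u ∈ H := H.mul_mem hRH huH
  have hlv₀ : Pi.single l 1 ᵥ* ((R * u : Matrix.SpecialLinearGroup (Fin n) F) :
      Matrix (Fin n) (Fin n) F) = ω := by
    rw [Matrix.SpecialLinearGroup.coe_mul, ← Matrix.vecMul_vecMul, hlR, hlu]
  have hv₀o : ((R * u : Matrix.SpecialLinearGroup (Fin n) F) :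
      Matrix (Fin n) (Fin n) F) *ᵥ Pi.single o 1 = Pi.single o 1 := by
    rw [Matrix.SpecialLinearGroup.coe_mul, ← Matrix.mulVec_mulVec, huo, RB]
  have hv₀w : ((R * u : Matrix.SpecialLinearGroup (Fin n) F) :
      Matrix (Fin n) (Fin n) F) *ᵥ Pi.single w 1 =
      Pi.single w 1 - Pi.single w' 1 - κ • Pi.single o 1 := by
    rw [Matrix.SpecialLinearGroup.coe_mul, ← Matrix.mulVec_mulVec, huw, RC]
  have hωz : ω ⬝ᵥ Pi.single z 1 = 0 := by simp [hω, hzl, hzl']
  have hωo : ω ⬝ᵥ Pi.single o 1 = 0 := by simp [hω, hol, hol']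
  have hωw : ω ⬝ᵥ Pi.single w 1 = 0 := by simp [hω, hwl, hwl']
  -- step C
  have c1 : Tm H (Pi.single z 1) ω := by
    rw [← hlu]
    apply Tm.conj' huH
    rw [huz]; exact ht
  have c2 : Tm H (Pi.single z 1 - Pi.single w 1) ω := by
    have := Tm.conj' (a := Pi.single z 1 - Pi.single w 1) (φ := ω) hRH (by rw [RA]; exact c1)
    rwa [hωR] at this
  have S1 : Tm H ((1 : F) • Pi.single w 1) ω := by
    have k1 := (c2.neg_left (by rw [dotProduct_sub, hωz, hωw, sub_zero])).add_left c1 hωz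
    exact k1.congr (by rw [one_smul]; abel) rfl
  -- step A
  have stepA : ∀ γ : F, Tm H (γ • Pi.single w 1) ω → Tm H ((κ * γ) • Pi.single o 1) (Pi.single l 1) := by
    intro γ hS
    have a1 : Tm H ((u : Matrix (Fin n) (Fin n) F) *ᵥ (γ • Pi.single w 1)) (Pi.single l 1) := by
      apply Tm.conj huH
      rw [hlu]; exact hS
    have a2 : Tm H (((R * u : Matrix.SpecialLinearGroup (Fin n) F) :
        Matrix (Fin n) (Fin n) F) *ᵥ (γ • Pi.single w 1)) (Pi.single l 1) := by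
      apply Tm.conj hv₀H
      rw [hlv₀]; exact hS
    rw [Matrix.mulVec_smul, huw] at a1
    rw [Matrix.mulVec_smul, hv₀w] at a2
    have k1 := (a2.neg_left (by
      simp [dotProduct_sub, hwl, hwl.symm, hw'l, hw'l.symm, hol, hol.symm])).add_left a1 (by
      simp [dotProduct_sub, hwl, hwl.symm, hw'l, hw'l.symm, hol, hol.symm])
    refine k1.congr ?_ rfl
    rw [smul_sub, smul_smul, mul_comm γ κ]
    abel
  -- step B
  have stepB : ∀ γ : F, Tm H (γ • Pi.single o 1) (Pi.single l 1) → Tm H (γ • Pi.single w 1) ω := by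
    intro γ hP
    have b1 : Tm H (γ • Pi.single o 1) ω := by
      rw [← hlv₀]
      apply Tm.conj' hv₀H
      rw [Matrix.mulVec_smul, hv₀o]; exact hP
    have b2 : Tm H (γ • (Pi.single o 1 - Pi.single w 1)) ω := by
      have := Tm.conj' (a := γ • (Pi.single o 1 - Pi.single w 1)) (φ := ω) hRH
        (by rw [Matrix.mulVec_smul, RB]; exact b1)
      rwa [hωR] at this
    have k1 := (b2.neg_left (by
      rw [dotProduct_smul, dotProduct_sub, hωo, hωw]; simp)).add_left b1 (by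
      rw [dotProduct_smul, hωo]; simp)
    refine k1.congr ?_ rfl
    rw [smul_sub]
    abel
  have hP : ∀ k : ℕ, Tm H ((κ ^ (k + 1)) • Pi.single o 1) (Pi.single l 1) := by
    intro k
    induction k with
    | zero =>
      have := stepA 1 S1
      simpa using this
    | succ k ih =>
      have := stepA _ (stepB _ ih)
      rwa [← pow_succ'] at this
  have hq : 2 ≤ Fintype.card F := Fintype.one_lt_card
  have hP1 : Tm H (Pi.single o 1) (Pi.single l 1) := by
    have := hP (Fintype.card F - 2)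
    rw [show Fintype.card F - 2 + 1 = Fintype.card F - 1 by omega,
      FiniteField.pow_card_sub_one_eq_one κ hκ, one_smul] at this
    exact this
  have hc : Tm H (Pi.single z 1) (Pi.single l 1) := by
    have := ht.add_left hP1 (by simp [hol, hol.symm])
    exact this.congr (by abel) rfl
  have h1 := stage1 (by omega) H u huH hu z l hz hl hc
  have hPκ : Tm H (κ • Pi.single o 1) (Pi.single l 1) := by
    have := hP 0
    simpa using this
  exact stage2 (by omega) H h1 o l hol κ hPκ hgen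

end Chain

section Conj
variable {n : ℕ} {F : Type*} [Field F]

theorem oneSubNlow_mulVec_apply (x : Fin n → F) (i i' : Fin n) (h : (i : ℕ) = i' + 1) :
    ((1 - Nlow n F) *ᵥ x) i = x i - x i' := by
  have h1 := single_vecMul_oneSubNlow (F := F) i i' h
  have h2 : ((1 - Nlow n F) *ᵥ x) i = Pi.single i 1 ⬝ᵥ ((1 - Nlow n F) *ᵥ x) := by simp
  rw [h2, Matrix.dotProduct_mulVec, h1]
  simp [sub_dotProduct]

theorem oneSubNlow_mulVec_apply_zero (x : Fin n → F) (z : Fin n) (h : (z : ℕ) = 0) :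
    ((1 - Nlow n F) *ᵥ x) z = x z := by
  rw [Matrix.sub_mulVec, Matrix.one_mulVec, Pi.sub_apply]
  have : (Nlow n F *ᵥ x) z = 0 := by
    simp only [Matrix.mulVec, dotProduct, Nlow, Matrix.of_apply]
    apply Finset.sum_eq_zero
    intro j _
    rw [if_neg (by omega), zero_mul]
  rw [this, sub_zero]

theorem step2 (hn : 5 ≤ n)
    (z o w w' l' l : Fin n) (hz : (z : ℕ) = 0) (ho : (o : ℕ) = 1) (hw : (w : ℕ) = 2)
    (hw' : (w' : ℕ) = 3) (hl' : (l' : ℕ) + 2 = n) (hl : (l : ℕ) + 1 = n) (κ : F) :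
    (1 + vecMulVec (Pi.single z 1) (-Pi.single l 1)) *
      (1 + vecMulVec (Pi.single o 1) (κ • Pi.single w' 1 + Pi.single l 1 - (2 : F) • Pi.single z 1)) *
      (1 - Nlow n F + vecMulVec (Pi.single w 1) (Pi.single o 1)
        - vecMulVec (Pi.single z 1) (Pi.single l 1)) =
    (1 + vecMulVec (Pi.single o 1 - Pi.single z 1) (Pi.single l 1)) *
      ((1 + vecMulVec ((-κ) • Pi.single o 1) (Pi.single w 1)) *
        (1 + vecMulVec (Pi.single w 1) (Pi.single z 1 + Pi.single o 1))) * (1 - Nlow n F) *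
      ((1 + vecMulVec (Pi.single z 1) (-Pi.single l 1)) *
      (1 + vecMulVec (Pi.single o 1) (κ • Pi.single w' 1 + Pi.single l 1 - (2 : F) • Pi.single z 1))) := by
  have ne : ∀ {i j : Fin n}, (i : ℕ) ≠ j → i ≠ j := fun h h' => h (congrArg Fin.val h')
  have hzo : z ≠ o := ne (by omega)
  have hzw : z ≠ w := ne (by omega)
  have how : o ≠ w := ne (by omega)
  have hzw' : z ≠ w' := ne (by omega)
  have how' : o ≠ w' := ne (by omega)
  have hww' : w ≠ w' := ne (by omega)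
  have hzl : z ≠ l := ne (by omega)
  have hol : o ≠ l := ne (by omega)
  have hwl : w ≠ l := ne (by omega)
  have hw'l : w' ≠ l := ne (by omega)
  have hzl' : z ≠ l' := ne (by omega)
  have hol' : o ≠ l' := ne (by omega)
  have hwl' : w ≠ l' := ne (by omega)
  have huz : (1 - Nlow n F) *ᵥ Pi.single z 1 = Pi.single z 1 - Pi.single o 1 :=
    oneSubNlow_mulVec_single z o (by omega)
  have huo : (1 - Nlow n F) *ᵥ Pi.single o 1 = Pi.single o 1 - Pi.single w 1 :=
    oneSubNlow_mulVec_single o w (by omega)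
  apply Matrix.ext_of_mulVec_single
  intro k
  obtain ⟨x, hx⟩ : ∃ x : Fin n → F, x = Pi.single k 1 := ⟨_, rfl⟩
  rw [← hx]
  obtain ⟨y, hy⟩ : ∃ y : Fin n → F, y = (1 - Nlow n F) *ᵥ x := ⟨_, rfl⟩
  have yz : y z = x z := by rw [hy]; exact oneSubNlow_mulVec_apply_zero x z hz
  have yo : y o = x o - x z := by rw [hy]; exact oneSubNlow_mulVec_apply x o z (by omega)
  have yw : y w = x w - x o := by rw [hy]; exact oneSubNlow_mulVec_apply x w o (by omega)
  have yw' : y w' = x w' - x w := by rw [hy]; exact oneSubNlow_mulVec_apply x w' w (by omega)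
  have yl : y l = x l - x l' := by rw [hy]; exact oneSubNlow_mulVec_apply x l l' (by omega)
  have T2 : ∀ x : Fin n → F, (1 + vecMulVec (Pi.single o 1)
      (κ • Pi.single w' 1 + Pi.single l 1 - (2 : F) • Pi.single z 1)) *ᵥ x =
      x + (κ * x w' + x l - 2 * x z) • Pi.single o 1 := by
    intro x
    rw [one_add_vmv_mulVec]
    simp [add_dotProduct, sub_dotProduct]
  have T1 : ∀ x : Fin n → F, (1 + vecMulVec (Pi.single z 1) (-Pi.single l 1)) *ᵥ x =
      x - x l • Pi.single z 1 := by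
    intro x
    rw [one_add_vmv_mulVec]
    simp [sub_eq_add_neg]
  have hs : ∀ x : Fin n → F, (1 + vecMulVec (Pi.single o 1 - Pi.single z 1) (Pi.single l 1)) *ᵥ x =
      x + x l • (Pi.single o 1 - Pi.single z 1) := by
    intro x
    rw [one_add_vmv_mulVec]
    simp
  have hRv : ∀ x : Fin n → F, ((1 + vecMulVec ((-κ) • Pi.single o 1) (Pi.single w 1)) *
        (1 + vecMulVec (Pi.single w 1) (Pi.single z 1 + Pi.single o 1))) *ᵥ x =
      x + (x z + x o) • Pi.single w 1 + (x w + (x z + x o)) • ((-κ) • Pi.single o 1) := by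
    intro x
    rw [← Matrix.mulVec_mulVec, one_add_vmv_mulVec, one_add_vmv_mulVec]
    simp [add_dotProduct]
  have hUP : ∀ x : Fin n → F, (1 - Nlow n F + vecMulVec (Pi.single w 1) (Pi.single o 1)
        - vecMulVec (Pi.single z 1) (Pi.single l 1)) *ᵥ x =
      (1 - Nlow n F) *ᵥ x + x o • Pi.single w 1 - x l • Pi.single z 1 := by
    intro x
    rw [Matrix.sub_mulVec, Matrix.add_mulVec, vmv_mulVec, vmv_mulVec]
    simp
  generalize ((1 + vecMulVec ((-κ) • Pi.single o 1) (Pi.single w 1)) *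
        (1 + vecMulVec (Pi.single w 1) (Pi.single z 1 + Pi.single o 1)) : Matrix (Fin n) (Fin n) F) = Rm at *
  generalize (1 + vecMulVec (Pi.single o 1 - Pi.single z 1) (Pi.single l 1) : Matrix (Fin n) (Fin n) F) = Sm at *
  generalize (1 + vecMulVec (Pi.single z 1) (-Pi.single l 1) : Matrix (Fin n) (Fin n) F) = T1m at *
  generalize (1 + vecMulVec (Pi.single o 1)
      (κ • Pi.single w' 1 + Pi.single l 1 - (2 : F) • Pi.single z 1) : Matrix (Fin n) (Fin n) F) = T2m at *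
  generalize (1 - Nlow n F + vecMulVec (Pi.single w 1) (Pi.single o 1)
        - vecMulVec (Pi.single z 1) (Pi.single l 1) : Matrix (Fin n) (Fin n) F) = UPm at *
  simp only [← Matrix.mulVec_mulVec]
  rw [hUP, T2, T1, ← hy, T2, T1, Matrix.mulVec_sub, Matrix.mulVec_add, Matrix.mulVec_smul,
    Matrix.mulVec_smul, huz, huo, ← hy, hRv, hs]
  simp only [Pi.add_apply, Pi.sub_apply, Pi.smul_apply, Pi.single_apply, smul_eq_mul, yz, yo, yw, yw', yl,
    hzo, hzo.symm, hzw, hzw.symm, how, how.symm, hzw', hzw'.symm, how', how'.symm, hww',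
      hww'.symm, hzl, hzl.symm, hol, hol.symm, hwl, hwl.symm, hw'l, hw'l.symm, if_true, if_false,
      mul_one, mul_zero, add_zero, sub_zero, zero_add, zero_sub]
  module

theorem val_finRotate' (i : Fin n) :
    (finRotate n i : ℕ) = if (i : ℕ) + 1 < n then (i : ℕ) + 1 else 0 := by
  cases n with
  | zero => exact i.elim0
  | succ m =>
    rw [coe_finRotate]
    have := i.2
    by_cases h : i = Fin.last m
    · rw [if_pos h, if_neg]
      rw [h]; simp
    · rw [if_neg h, if_pos]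
      have h' : (i : ℕ) ≠ m := fun h'' => h (Fin.ext h'')
      omega

set_option maxHeartbeats 4000000 in
theorem step1 (hn : 5 ≤ n)
    (z o w l : Fin n) (hz : (z : ℕ) = 0) (ho : (o : ℕ) = 1) (hw : (w : ℕ) = 2)
    (hl : (l : ℕ) + 1 = n) :
    ∃ P : Matrix (Fin n) (Fin n) F, P.det = 1 ∧
      P * (1 - Nlow n F) = (1 - Nlow n F + vecMulVec (Pi.single w 1) (Pi.single o 1)
        - vecMulVec (Pi.single z 1) (Pi.single l 1)) * P := by
  obtain ⟨ρ, hρ, hsign⟩ : ∃ ρ : Equiv.Perm (Fin n),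
      (∀ i, (ρ i : ℕ) = if (i : ℕ) + 2 < n then (i : ℕ) + 2 else (i : ℕ) + 2 - n) ∧
      Equiv.Perm.sign ρ = 1 := by
    refine ⟨finRotate n * finRotate n, ?_, by rw [Equiv.Perm.sign_mul, Int.units_mul_self]⟩
    intro i
    rw [Equiv.Perm.mul_apply, val_finRotate', val_finRotate']
    have := i.2
    split_ifs <;> omega
  refine ⟨(ρ⁻¹).permMatrix F, by rw [Matrix.det_permutation]; simp [hsign], ?_⟩
  rw [PEquiv.toMatrix_toPEquiv_mul, PEquiv.mul_toMatrix_toPEquiv]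
  ext i j
  obtain ⟨i', rfl⟩ := ρ.surjective i
  have e1 : ρ⁻¹ (ρ i') = i' := by simp
  have e2 : (ρ⁻¹).symm j = ρ j := rfl
  rw [submatrix_apply, submatrix_apply, id, id, e1, e2]
  have hi := hρ i'
  have hj := hρ j
  have hi2 := i'.2
  have hj2 := j.2
  simp only [Matrix.sub_apply, Matrix.add_apply, Matrix.one_apply, Nlow, Matrix.of_apply,
    vecMulVec_apply, Pi.single_apply, Fin.ext_iff, hz, ho, hw]
  generalize (ρ i' : ℕ) = a at *
  generalize (ρ j : ℕ) = b at *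
  split_ifs at hi hj <;> split_ifs <;> first | (exfalso; omega) | norm_num

end Conj

section Main
variable {n : ℕ} {F : Type*} [Field F]

theorem Nlow_pow (k : ℕ) :
    Nlow n F ^ k = Matrix.of fun i j : Fin n => if (i : ℕ) = j + k then (1 : F) else 0 := by
  have h : Nlow n F = (Nup n F)ᵀ := by
    ext i j
    simp [Nlow, Nup]
  rw [h, ← Matrix.transpose_pow, Nup_pow]
  ext i j
  simp

theorem det_one_sub_Nlow : (1 - Nlow n F).det = 1 := by
  have h : 1 - Nlow n F = (1 - Nup n F)ᵀ := by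
    ext i j
    simp [Nlow, Nup, Matrix.one_apply, eq_comm]
  rw [h, Matrix.det_transpose, det_one_sub_Nup]

theorem regular_oneSubNlow (hn : 1 ≤ n) (M : Matrix (Fin n) (Fin n) F) (hM : M = 1 - Nlow n F) :
    IsNilpotent (M - 1) ∧ (M - 1) ^ (n - 1) ≠ 0 := by
  have hsub : M - 1 = - Nlow n F := by rw [hM]; abel
  rw [hsub]
  constructor
  · refine ⟨n, ?_⟩
    rw [neg_pow, Nlow_pow]
    have h0 : (Matrix.of fun i j : Fin n => if (i : ℕ) = j + n then (1 : F) else 0) = 0 := by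
      ext i j
      simp only [Matrix.of_apply, Matrix.zero_apply]
      rw [if_neg]
      have := i.2
      omega
    rw [h0]; simp
  · intro h1
    have h2 : (Nlow n F) ^ (n - 1) = 0 := by
      rw [neg_pow] at h1
      rcases neg_one_pow_eq_or (Matrix (Fin n) (Fin n) F) (n - 1) with h3 | h3
      · rw [h3, one_mul] at h1; exact h1
      · rw [h3, neg_one_mul, neg_eq_zero] at h1; exact h1
    have h3 := congrFun (congrFun h2 ⟨n - 1, by omega⟩) ⟨0, by omega⟩
    rw [Nlow_pow] at h3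
    simp at h3

theorem exists_conj_of_mul_eq {ι : Type*} [Fintype ι] [DecidableEq ι]
    (u V g : Matrix.SpecialLinearGroup ι F) (h : g * u = V * g) : g * u * g⁻¹ = V := by
  rw [h, mul_inv_cancel_right]

theorem exists_primitive_ne_four [Fintype F] :
    ∃ κ : F, κ ≠ 0 ∧ κ ≠ 4 ∧ ∀ t : F, t ≠ 0 → ∃ k : ℕ, t = κ ^ k := by
  classical
  obtain ⟨μu, hμu⟩ := IsCyclic.exists_generator (α := Fˣ)
  obtain ⟨μ, hμdef⟩ : ∃ μ : F, μ = (μu : F) := ⟨_, rfl⟩
  have hμ0 : μ ≠ 0 := by rw [hμdef]; exact μu.ne_zero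
  have hgen : ∀ t : F, t ≠ 0 → ∃ k : ℕ, t = μ ^ k := by
    intro t ht
    have h1 := hμu (Units.mk0 t ht)
    rw [← mem_powers_iff_mem_zpowers] at h1
    obtain ⟨k, hk⟩ := h1
    refine ⟨k, ?_⟩
    have h2 := congrArg Units.val hk
    rw [hμdef]
    simpa using h2.symm
  by_cases h4 : μ = 4
  · have h20 : (2 : F) ≠ 0 := by
      intro h
      apply hμ0
      rw [h4]
      have : (4 : F) = 2 * 2 := by norm_num
      rw [this, h, mul_zero]
    refine ⟨2, h20, ?_, ?_⟩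
    · intro h
      apply h20
      have : (4 : F) = 2 + 2 := by norm_num
      rw [this] at h
      exact (left_eq_add.mp h)
    · intro t ht
      obtain ⟨k, hk⟩ := hgen t ht
      refine ⟨2 * k, ?_⟩
      rw [hk, h4, pow_mul]
      norm_num
  · exact ⟨μ, hμ0, h4, hgen⟩

theorem exists_two_conj_ge_five [Fintype F] (hn : 5 ≤ n) :
    ∃ u g : Matrix.SpecialLinearGroup (Fin n) F,
      (IsNilpotent ((u : Matrix (Fin n) (Fin n) F) - 1) ∧
        ((u : Matrix (Fin n) (Fin n) F) - 1) ^ (n - 1) ≠ 0) ∧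
      Subgroup.closure ({u, g * u * g⁻¹} : Set (Matrix.SpecialLinearGroup (Fin n) F)) = ⊤ := by
  classical
  obtain ⟨κ, hκ0, hκ4, hgen⟩ := exists_primitive_ne_four (F := F)
  obtain ⟨z, hz⟩ : ∃ z : Fin n, (z : ℕ) = 0 := ⟨⟨0, by omega⟩, rfl⟩
  obtain ⟨o, ho⟩ : ∃ o : Fin n, (o : ℕ) = 1 := ⟨⟨1, by omega⟩, rfl⟩
  obtain ⟨w, hw⟩ : ∃ w : Fin n, (w : ℕ) = 2 := ⟨⟨2, by omega⟩, rfl⟩
  obtain ⟨w', hw'⟩ : ∃ w' : Fin n, (w' : ℕ) = 3 := ⟨⟨3, by omega⟩, rfl⟩
  obtain ⟨l', hl'⟩ : ∃ l' : Fin n, (l' : ℕ) + 2 = n := ⟨⟨n - 2, by omega⟩, by simp; omega⟩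
  obtain ⟨l, hl⟩ : ∃ l : Fin n, (l : ℕ) + 1 = n := ⟨⟨n - 1, by omega⟩, by simp; omega⟩
  have ne : ∀ {i j : Fin n}, (i : ℕ) ≠ j → i ≠ j := fun h h' => h (congrArg Fin.val h')
  have hzo : z ≠ o := ne (by omega)
  have hzw : z ≠ w := ne (by omega)
  have how : o ≠ w := ne (by omega)
  have how' : o ≠ w' := ne (by omega)
  have hzl : z ≠ l := ne (by omega)
  have hol : o ≠ l := ne (by omega)
  have hwl : w ≠ l := ne (by omega)
  obtain ⟨u, hu⟩ : ∃ u : Matrix.SpecialLinearGroup (Fin n) F,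
      (u : Matrix (Fin n) (Fin n) F) = 1 - Nlow n F := ⟨⟨_, det_one_sub_Nlow⟩, rfl⟩
  obtain ⟨A₁, hA₁⟩ := exists_sl_vmv ((-κ) • Pi.single o 1 : Fin n → F) (Pi.single w 1)
    (by simp [how, how.symm])
  obtain ⟨B₁, hB₁⟩ := exists_sl_vmv (Pi.single w 1 : Fin n → F) (Pi.single z 1 + Pi.single o 1)
    (by simp [add_dotProduct, how, how.symm, hzw, hzw.symm])
  obtain ⟨s, hs⟩ := exists_sl_vmv (Pi.single o 1 - Pi.single z 1 : Fin n → F) (Pi.single l 1)
    (by simp [dotProduct_sub, hol, hol.symm, hzl, hzl.symm])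
  obtain ⟨T₁, hT₁⟩ := exists_sl_vmv (Pi.single z 1 : Fin n → F) (-Pi.single l 1)
    (by simp [hzl, hzl.symm])
  obtain ⟨T₂, hT₂⟩ := exists_sl_vmv (Pi.single o 1 : Fin n → F)
    (κ • Pi.single w' 1 + Pi.single l 1 - (2 : F) • Pi.single z 1)
    (by simp [add_dotProduct, sub_dotProduct, hol, hol.symm, hzo, hzo.symm, how', how'.symm])
  obtain ⟨P, hPdet, hP⟩ := step1 (F := F) hn z o w l hz ho hw hl
  obtain ⟨π, hπ⟩ : ∃ π : Matrix.SpecialLinearGroup (Fin n) F,
      (π : Matrix (Fin n) (Fin n) F) = P := ⟨⟨P, hPdet⟩, rfl⟩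
  obtain ⟨R, hRdef⟩ : ∃ R, R = A₁ * B₁ := ⟨_, rfl⟩
  have hR : (R : Matrix (Fin n) (Fin n) F) =
      (1 + vecMulVec ((-κ) • Pi.single o 1) (Pi.single w 1)) *
        (1 + vecMulVec (Pi.single w 1) (Pi.single z 1 + Pi.single o 1)) := by
    rw [hRdef, Matrix.SpecialLinearGroup.coe_mul, hA₁, hB₁]
  have hconj : (T₁ * T₂ * π) * u * (T₁ * T₂ * π)⁻¹ = s * R * u := by
    apply exists_conj_of_mul_eq
    apply Subtype.ext
    simp only [Matrix.SpecialLinearGroup.coe_mul]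
    rw [hπ, Matrix.mul_assoc _ P, hu, hP, ← Matrix.mul_assoc, hT₁, hT₂,
      step2 hn z o w w' l' l hz ho hw hw' hl' hl κ, hs, hR]
    simp only [Matrix.mul_assoc]
  refine ⟨u, T₁ * T₂ * π, regular_oneSubNlow (by omega) _ hu, ?_⟩
  rw [hconj]
  obtain ⟨H, hH⟩ : ∃ H : Subgroup (Matrix.SpecialLinearGroup (Fin n) F),
      H = Subgroup.closure ({u, s * R * u} : Set (Matrix.SpecialLinearGroup (Fin n) F)) :=
    ⟨_, rfl⟩
  rw [← hH]
  have huH : u ∈ H := by rw [hH]; exact Subgroup.subset_closure (by simp)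
  have hvH : s * R * u ∈ H := by rw [hH]; exact Subgroup.subset_closure (by simp)
  have hsR : s * R ∈ H := by
    have := H.mul_mem hvH (H.inv_mem huH)
    rwa [mul_inv_cancel_right] at this
  have hRa : (R : Matrix (Fin n) (Fin n) F) *ᵥ (Pi.single o 1 - Pi.single z 1) =
      Pi.single o 1 - Pi.single z 1 := by
    rw [hR, ← Matrix.mulVec_mulVec, one_add_vmv_mulVec, one_add_vmv_mulVec]
    simp [add_dotProduct, dotProduct_sub, hzo, hzo.symm, hzw, hzw.symm, how, how.symm]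
  have hlR : Pi.single l 1 ᵥ* (R : Matrix (Fin n) (Fin n) F) = Pi.single l 1 := by
    rw [hR, ← Matrix.vecMul_vecMul, vecMul_one_add_vmv, vecMul_one_add_vmv]
    simp [hol, hol.symm, hwl, hwl.symm]
  have hcomm : Commute s R := by
    apply Subtype.ext
    simp only [Matrix.SpecialLinearGroup.coe_mul]
    rw [hs, Matrix.add_mul, Matrix.mul_add, Matrix.one_mul, Matrix.mul_one, vecMulVec_mul,
      mul_vecMulVec, hRa, hlR]
  have hcub := cubic_of_pair ((-κ) • Pi.single o 1 : Fin n → F) (Pi.single w 1) (Pi.single w 1)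
    (Pi.single z 1 + Pi.single o 1) κ (by simp [how, how.symm]) (by simp)
    (by simp [add_dotProduct, hzo, hzo.symm]) (by simp [add_dotProduct, how, how.symm, hzw, hzw.symm])
    (R : Matrix (Fin n) (Fin n) F) hR
  obtain ⟨hRH, hsH⟩ := extract_ss H s R _ _ hs
    (by simp [dotProduct_sub, hol, hol.symm, hzl, hzl.symm]) hcomm (2 - κ)
    (by intro h; apply hκ0; linear_combination -h)
    (by intro h; apply hκ4; linear_combination -h) hcub hsR
  have ht : Tm H (Pi.single z 1 - Pi.single o 1) (Pi.single l 1) := by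
    have h1 : Tm H (Pi.single o 1 - Pi.single z 1) (Pi.single l 1) := ⟨s, hsH, hs⟩
    exact (h1.neg_left (by simp [dotProduct_sub, hol, hol.symm, hzl, hzl.symm])).congr
      (by abel) rfl
  exact chain5 hn H u R hu z o w w' l' l hz ho hw hw' hl' hl κ hκ0 hR huH hRH ht hgen

end Main

section Four
variable {F : Type*} [Field F]

/-- semisimple part for the degree four design -/
def fR (τ : F) : Matrix (Fin 4) (Fin 4) F :=
  !![1, 0, 0, 0; 0, τ, -1, τ * τ - τ - 1; 0, 1, 0, τ - 1; 0, 0, 0, 1]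

/-- conjugating matrix for the degree four design -/
def fG (τ : F) : Matrix (Fin 4) (Fin 4) F :=
  !![1, 0, 0, 1; 0, 1, 1 - τ, 0; 0, 0, τ - 1, -1; 0, 0, 1, 0]

theorem Nlow_four : Nlow 4 F = !![0, 0, 0, 0; 1, 0, 0, 0; 0, 1, 0, 0; 0, 0, 1, 0] := by
  ext i j
  fin_cases i <;> fin_cases j <;> simp [Nlow]

theorem det_fR (τ : F) : (fR τ).det = 1 := by
  simp [fR, Matrix.det_succ_row_zero, Fin.sum_univ_succ, Fin.succAbove]

theorem det_fG (τ : F) : (fG τ).det = 1 := by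
  simp [fG, Matrix.det_succ_row_zero, Fin.sum_univ_succ, Fin.succAbove]

theorem fR_cubic (τ : F) : (fR τ - 1) * (fR τ * fR τ - τ • fR τ + 1) = 0 := by
  ext i j
  fin_cases i <;> fin_cases j <;>
    simp [fR, Matrix.mul_apply, Fin.sum_univ_four, Matrix.one_apply] <;> ring

theorem fG_mul (τ : F) : fG τ * (1 - Nlow 4 F) =
    (1 - Nlow 4 F) * ((1 + vecMulVec (Pi.single 0 1) (-Pi.single 3 1)) * fR τ) * fG τ := by
  rw [Nlow_four]
  ext i j
  fin_cases i <;> fin_cases j <;>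
    simp [fR, fG, Matrix.mul_apply, Fin.sum_univ_four, Matrix.one_apply, vecMulVec_apply] <;> ring

theorem gen_four [Fintype F] (τ μ : F) (h2 : τ ≠ 2) (h2' : τ ≠ -2)
    (hμ : τ = μ ∨ μ = 2 ∨ μ = -2) (hgen : ∀ t : F, t ≠ 0 → ∃ k : ℕ, t = μ ^ k) :
    ∃ u g : Matrix.SpecialLinearGroup (Fin 4) F,
      (u : Matrix (Fin 4) (Fin 4) F) = 1 - Nlow 4 F ∧
      Subgroup.closure ({u, g * u * g⁻¹} : Set (Matrix.SpecialLinearGroup (Fin 4) F)) = ⊤ := by
  classical
  obtain ⟨u, hu⟩ : ∃ u : Matrix.SpecialLinearGroup (Fin 4) F,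
      (u : Matrix (Fin 4) (Fin 4) F) = 1 - Nlow 4 F := ⟨⟨_, det_one_sub_Nlow⟩, rfl⟩
  obtain ⟨R, hR⟩ : ∃ R : Matrix.SpecialLinearGroup (Fin 4) F,
      (R : Matrix (Fin 4) (Fin 4) F) = fR τ := ⟨⟨_, det_fR τ⟩, rfl⟩
  obtain ⟨g, hg⟩ : ∃ g : Matrix.SpecialLinearGroup (Fin 4) F,
      (g : Matrix (Fin 4) (Fin 4) F) = fG τ := ⟨⟨_, det_fG τ⟩, rfl⟩
  obtain ⟨t, ht⟩ := exists_sl_vmv (Pi.single 0 1 : Fin 4 → F) (-Pi.single 3 1) (by simp)
  have hconj : g * u * g⁻¹ = u * (t * R) := by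
    apply exists_conj_of_mul_eq
    apply Subtype.ext
    simp only [Matrix.SpecialLinearGroup.coe_mul]
    rw [hg, hu, ht, hR, fG_mul]
  refine ⟨u, g, hu, ?_⟩
  rw [hconj]
  obtain ⟨H, hH⟩ : ∃ H : Subgroup (Matrix.SpecialLinearGroup (Fin 4) F),
      H = Subgroup.closure ({u, u * (t * R)} : Set (Matrix.SpecialLinearGroup (Fin 4) F)) :=
    ⟨_, rfl⟩
  rw [← hH]
  have huH : u ∈ H := by rw [hH]; exact Subgroup.subset_closure (by simp)
  have hvH : u * (t * R) ∈ H := by rw [hH]; exact Subgroup.subset_closure (by simp)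
  have htR : t * R ∈ H := by
    have := H.mul_mem (H.inv_mem huH) hvH
    rwa [inv_mul_cancel_left] at this
  have hR0 : (R : Matrix (Fin 4) (Fin 4) F) *ᵥ Pi.single 0 1 = Pi.single 0 1 := by
    rw [hR]
    ext i
    fin_cases i <;> simp [fR, Matrix.mulVec, dotProduct, Fin.sum_univ_four]
  have h3R : Pi.single 3 1 ᵥ* (R : Matrix (Fin 4) (Fin 4) F) = Pi.single 3 1 := by
    rw [hR]
    ext i
    fin_cases i <;> simp [fR, Matrix.vecMul, dotProduct, Fin.sum_univ_four]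
  have h1R : Pi.single 1 1 ᵥ* (R : Matrix (Fin 4) (Fin 4) F) =
      τ • Pi.single 1 1 - Pi.single 2 1 + (τ * τ - τ - 1) • Pi.single 3 1 := by
    rw [hR]
    ext i
    fin_cases i <;> simp [fR, Matrix.vecMul, dotProduct, Fin.sum_univ_four]
  have hcomm : Commute t R := by
    apply Subtype.ext
    simp only [Matrix.SpecialLinearGroup.coe_mul]
    rw [ht, Matrix.add_mul, Matrix.mul_add, Matrix.one_mul, Matrix.mul_one, vecMulVec_mul,
      mul_vecMulVec, hR0, Matrix.neg_vecMul, h3R]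
  obtain ⟨hRH, htH⟩ := extract_ss H t R _ _ ht (by simp) hcomm τ h2 h2'
    (by rw [hR]; exact fR_cubic τ) htR
  have hc : Tm H (Pi.single 0 1) (Pi.single 3 1) := by
    have h1 : Tm H (Pi.single 0 1) (-Pi.single 3 1) := ⟨t, htH, ht⟩
    exact (h1.neg_right (by simp)).congr rfl (by simp)
  have h1 := stage1 (by omega) H u huH hu 0 3 rfl rfl hc
  have hτ : Tm H (τ • Pi.single 0 1) (Pi.single 2 1) := by
    have k1 : Tm H (Pi.single 0 1) (Pi.single 1 1 ᵥ* (R : Matrix (Fin 4) (Fin 4) F)) := by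
      apply Tm.conj' hRH
      rw [hR0]
      exact h1 0 1 (by decide)
    rw [h1R] at k1
    have k2 := k1.comm (by simp [add_dotProduct, sub_dotProduct]) (h1 1 2 (by decide)) (by simp)
      (by simp)
    refine k2.congr ?_ rfl
    simp [add_dotProduct, sub_dotProduct]
  have h02 := h1 0 2 (by decide)
  have hμT : Tm H (μ • Pi.single 0 1) (Pi.single 2 1) := by
    rcases hμ with h | h | h
    · rw [← h]; exact hτ
    · rw [h]
      exact (h02.add_left h02 (by simp)).congr (by rw [two_smul]) rfl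
    · rw [h]
      exact ((h02.add_left h02 (by simp)).neg_left (by simp)).congr (by rw [neg_smul, two_smul]) rfl
  exact stage2 (by omega) H h1 0 2 (by decide) μ hμT hgen

theorem exists_two_conj_four [Fintype F] :
    ∃ u g : Matrix.SpecialLinearGroup (Fin 4) F,
      (IsNilpotent ((u : Matrix (Fin 4) (Fin 4) F) - 1) ∧
        ((u : Matrix (Fin 4) (Fin 4) F) - 1) ^ (4 - 1) ≠ 0) ∧
      Subgroup.closure ({u, g * u * g⁻¹} : Set (Matrix.SpecialLinearGroup (Fin 4) F)) = ⊤ := by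
  obtain ⟨μ, hμ0, -, hgen⟩ := exists_primitive_ne_four (F := F)
  by_cases h : μ = 2 ∨ μ = -2
  · have h20 : (2 : F) ≠ 0 := by
      intro h0
      rcases h with h | h
      · exact hμ0 (by rw [h, h0])
      · exact hμ0 (by rw [h, h0, neg_zero])
    obtain ⟨u, g, hu, hcl⟩ := gen_four (0 : F) μ (Ne.symm h20)
      (by intro h'; apply h20; linear_combination h') (Or.inr h) hgen
    exact ⟨u, g, regular_oneSubNlow (by omega) _ hu, hcl⟩
  · rw [not_or] at h
    obtain ⟨u, g, hu, hcl⟩ := gen_four μ μ h.1 h.2 (Or.inl rfl) hgen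
    exact ⟨u, g, regular_oneSubNlow (by omega) _ hu, hcl⟩

end Four

section Final
variable {n : ℕ} {F : Type*} [Field F]

theorem regular_conj (u g : Matrix.SpecialLinearGroup (Fin n) F)
    (h : IsNilpotent ((u : Matrix (Fin n) (Fin n) F) - 1) ∧
        ((u : Matrix (Fin n) (Fin n) F) - 1) ^ (n - 1) ≠ 0) :
    IsNilpotent (((g * u * g⁻¹ : Matrix.SpecialLinearGroup (Fin n) F) :
        Matrix (Fin n) (Fin n) F) - 1) ∧
      (((g * u * g⁻¹ : Matrix.SpecialLinearGroup (Fin n) F) :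
        Matrix (Fin n) (Fin n) F) - 1) ^ (n - 1) ≠ 0 := by
  obtain ⟨d, hd⟩ : ∃ d : Matrix (Fin n) (Fin n) F, d = (g : Matrix (Fin n) (Fin n) F) := ⟨_, rfl⟩
  obtain ⟨di, hdi⟩ : ∃ di : Matrix (Fin n) (Fin n) F,
      di = ((g⁻¹ : Matrix.SpecialLinearGroup (Fin n) F) : Matrix (Fin n) (Fin n) F) := ⟨_, rfl⟩
  have hdd : d * di = 1 := by
    rw [hd, hdi, ← Matrix.SpecialLinearGroup.coe_mul, mul_inv_cancel,
      Matrix.SpecialLinearGroup.coe_one]
  have hdd' : di * d = 1 := by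
    rw [hd, hdi, ← Matrix.SpecialLinearGroup.coe_mul, inv_mul_cancel,
      Matrix.SpecialLinearGroup.coe_one]
  have hsub : ((g * u * g⁻¹ : Matrix.SpecialLinearGroup (Fin n) F) :
      Matrix (Fin n) (Fin n) F) - 1 = d * ((u : Matrix (Fin n) (Fin n) F) - 1) * di := by
    rw [Matrix.SpecialLinearGroup.coe_mul, Matrix.SpecialLinearGroup.coe_mul, ← hd, ← hdi,
      Matrix.mul_sub, Matrix.mul_one, Matrix.sub_mul, hdd]
  have hpow : ∀ k : ℕ, (((g * u * g⁻¹ : Matrix.SpecialLinearGroup (Fin n) F) :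
      Matrix (Fin n) (Fin n) F) - 1) ^ k = d * ((u : Matrix (Fin n) (Fin n) F) - 1) ^ k * di := by
    intro k
    rw [hsub]
    exact conj_pow_aux d di _ hdd' k hdd
  obtain ⟨⟨k, hk⟩, h2⟩ := h
  refine ⟨⟨k, ?_⟩, ?_⟩
  · rw [hpow, hk]; simp
  · rw [hpow]
    intro h0
    apply h2
    calc ((u : Matrix (Fin n) (Fin n) F) - 1) ^ (n - 1)
        = di * (d * ((u : Matrix (Fin n) (Fin n) F) - 1) ^ (n - 1) * di) * d := by
          rw [Matrix.mul_assoc d, ← Matrix.mul_assoc di, hdd', Matrix.one_mul, Matrix.mul_assoc,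
            hdd', Matrix.mul_one]
      _ = 0 := by rw [h0]; simp

theorem exists_two_conj_regular_unipotent [Fintype F] (hn : 4 ≤ n) :
    ∃ u g : Matrix.SpecialLinearGroup (Fin n) F,
      (IsNilpotent ((u : Matrix (Fin n) (Fin n) F) - 1) ∧
        ((u : Matrix (Fin n) (Fin n) F) - 1) ^ (n - 1) ≠ 0) ∧
      Subgroup.closure ({u, g * u * g⁻¹} : Set (Matrix.SpecialLinearGroup (Fin n) F)) = ⊤ := by
  rcases Nat.lt_or_ge 4 n with h | h
  · exact exists_two_conj_ge_five h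
  · obtain rfl : n = 4 := by omega
    exact exists_two_conj_four

end Final

end Cfsg.Agent.Lib.Helper46
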